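import Mathlib

set_option autoImplicit false

namespace Cfsg.Agent.H5

/-- A permutation that agrees on every triple with an affine map is affine (char ≠ 2). -/
theorem affine_of_three {K V : Type*} [Field K] (h2 : (2 : K) ≠ 0) [AddCommGroup V] [Module K V]
    (σ : Equiv.Perm V)
    (h : ∀ t : Fin 3 → V, ∃ (A : V ≃ₗ[K] V) (b : V), ∀ i, σ (t i) = A (t i) + b) :
    ∃ (A : V ≃ₗ[K] V) (b : V), ∀ x, σ x = A x + b := by
  have key : ∀ (x y : V) (c : K), σ (x + c • (y - x)) = σ x + c • (σ y - σ x) := by
    intro x y c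
    obtain ⟨A, b, hA⟩ := h ![x, y, x + c • (y - x)]
    have h0 := hA 0
    have h1 := hA 1
    have h2 := hA 2
    simp only [Matrix.cons_val_zero, Matrix.cons_val_one, Matrix.cons_val_two, Matrix.head_cons,
      Matrix.tail_cons] at h0 h1 h2
    rw [h2, h0, h1]
    simp only [map_add, map_smul, map_sub]
    module
  have hs : ∀ (y : V) (c : K), σ (c • y) - σ 0 = c • (σ y - σ 0) := by
    intro y c
    have := key 0 y c
    simp only [zero_add, sub_zero] at this
    rw [this]; abel
  have ha : ∀ x y : V, σ (x + y) - σ 0 = (σ x - σ 0) + (σ y - σ 0) := by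
    intro x y
    have e1 : x + y = (2 : K) • (x + (2 : K)⁻¹ • (y - x)) := by
      rw [smul_add, smul_smul, mul_inv_cancel₀ h2, one_smul, two_smul]; abel
    rw [e1, hs, key, smul_sub, smul_add, smul_smul, mul_inv_cancel₀ h2, one_smul, two_smul,
      two_smul]
    abel
  let f : V →ₗ[K] V :=
    { toFun := fun x => σ x - σ 0
      map_add' := ha
      map_smul' := fun c y => hs y c }
  have hf : Function.Bijective f := by
    constructor
    · intro x y hxy
      have : σ x - σ 0 = σ y - σ 0 := hxy
      exact σ.injective (sub_left_injective this)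
    · intro y
      refine ⟨σ.symm (y + σ 0), ?_⟩
      change σ _ - σ 0 = y
      simp
  refine ⟨LinearEquiv.ofBijective f hf, σ 0, fun x => ?_⟩
  change σ x = σ x - σ 0 + σ 0
  simp

/-- Linearly independent finite families can be moved onto each other. -/
theorem exists_linearEquiv_of_linearIndependent {K V ι : Type*} [Field K] [AddCommGroup V]
    [Module K V] [Finite ι] (s t : ι → V) (hs : LinearIndependent K s)
    (ht : LinearIndependent K t) : ∃ A : V ≃ₗ[K] V, ∀ i, A (s i) = t i := by
  let f := hs.linearCombinationEquiv.symm ≪≫ₗ ht.linearCombinationEquiv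
  have : FiniteDimensional K (Submodule.span K (Set.range s)) :=
    FiniteDimensional.span_of_finite K (Set.finite_range _)
  obtain ⟨g, hg⟩ := Submodule.exists_linearEquiv_restrict_eq f
  refine ⟨g, fun i => ?_⟩
  have q1 : hs.linearCombinationEquiv (Finsupp.single i 1) = s i := by simp
  have q2 : ht.linearCombinationEquiv (Finsupp.single i 1) = t i := by simp
  rw [← q1, ← hg, ← q2]
  simp [f]

/-- On a proper subspace a linear automorphism agrees with one of determinant one. -/
theorem exists_det_one_agree {K V : Type*} [Field K] [AddCommGroup V] [Module K V]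
    [FiniteDimensional K V] (W : Submodule K V) (hW : W ≠ ⊤) (A : V ≃ₗ[K] V) :
    ∃ B : V ≃ₗ[K] V, LinearMap.det (B : V →ₗ[K] V) = 1 ∧ ∀ w ∈ W, B w = A w := by
  obtain ⟨f, hf0, hf⟩ := Submodule.exists_le_ker_of_lt_top W (lt_top_iff_ne_top.2 hW)
  obtain ⟨v, hv⟩ : ∃ v, f v = 1 := by
    obtain ⟨u, hu⟩ := DFunLike.ne_iff.1 hf0
    have hu' : f u ≠ 0 := hu
    exact ⟨(f u)⁻¹ • u, by simp [hu']⟩
  set a : K := (LinearMap.det (A : V →ₗ[K] V))⁻¹ with ha
  have hA : LinearMap.det (A : V →ₗ[K] V) ≠ 0 := (LinearEquiv.isUnit_det' A).ne_zero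
  have hu : IsUnit (1 + f ((a - 1) • v)) := by
    simp [hv, ha, hA]
  refine ⟨(LinearEquiv.dilatransvection hu).trans A, ?_, ?_⟩
  · rw [LinearEquiv.coe_trans, LinearMap.det_comp, LinearEquiv.dilatransvection.coe_toLinearMap,
      LinearMap.transvection.det]
    simp [hv, ha, hA]
  · intro w hw
    have : f w = 0 := hf hw
    simp [LinearEquiv.dilatransvection.apply, this]

end Cfsg.Agent.H5
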