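import Cfsg.Agent.H3.O8Def

/-!
# The extraspecial group generated by the four quaternion groups
-/

set_option autoImplicit false
set_option maxRecDepth 100000
set_option synthInstance.maxSize 100000

namespace Cfsg.Agent.H5.O8

open Subgroup Cfsg.Agent.H3.L43 Cfsg.Agent.H3.O8

/-- Addition in the four-group. -/
def xr : Fin 4 → Fin 4 → Fin 4 := ![![0, 1, 2, 3], ![1, 0, 3, 2], ![2, 3, 0, 1], ![3, 2, 1, 0]]

/-- The cocycle of the quaternion group. -/
def be : Fin 4 → Fin 4 → Bool :=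
  ![![false, false, false, false], ![false, true, false, true], ![false, true, true, false],
    ![false, false, true, true]]

/-- Rotation of the three nonzero elements. -/
def rot (s : ZMod 3) : Fin 4 → Fin 4 :=
  if s = 0 then ![0, 1, 2, 3] else if s = 1 then ![0, 2, 3, 1] else ![0, 3, 1, 2]

/-- Exchange of the last two elements. -/
def s23 : Fin 4 → Fin 4 := ![0, 1, 3, 2]

/-- The model of the extraspecial group. -/
@[ext] structure XS where
  /-- The central part. -/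
  c : Bool
  /-- First component. -/
  f0 : Fin 4
  /-- Second component. -/
  f1 : Fin 4
  /-- Third component. -/
  f2 : Fin 4
  /-- Fourth component. -/
  f3 : Fin 4
  deriving DecidableEq

instance instFintypeXS : Fintype XS :=
  Fintype.ofEquiv (Bool × Fin 4 × Fin 4 × Fin 4 × Fin 4)
    ⟨fun x => ⟨x.1, x.2.1, x.2.2.1, x.2.2.2.1, x.2.2.2.2⟩, fun a => ⟨a.c, a.f0, a.f1, a.f2, a.f3⟩,
      fun _ => rfl, fun _ => rfl⟩

theorem card_XS : Nat.card XS = 512 := by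
  rw [Nat.card_eq_fintype_card, Fintype.ofEquiv_card]
  simp

/-- The components. -/
def XS.f (x : XS) : Fin 4 → Fin 4 := ![x.f0, x.f1, x.f2, x.f3]

/-- The product in the model. -/
def XS.mul (x y : XS) : XS :=
  ⟨xor (be x.f3 y.f3) (xor (be x.f2 y.f2) (xor (be x.f1 y.f1) (xor (be x.f0 y.f0) (xor x.c y.c)))),
    xr x.f0 y.f0, xr x.f1 y.f1, xr x.f2 y.f2, xr x.f3 y.f3⟩

/-- Multiplication by a central element. -/
def XS.tw (b : Bool) (x : XS) : XS := ⟨xor b x.c, x.f0, x.f1, x.f2, x.f3⟩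

/-- The central elements. -/
def ce (b : Bool) : XS := ⟨b, 0, 0, 0, 0⟩

/-- An element with one component. -/
def io (m y : Fin 4) : XS :=
  ![⟨false, y, 0, 0, 0⟩, ⟨false, 0, y, 0, 0⟩, ⟨false, 0, 0, y, 0⟩, ⟨false, 0, 0, 0, y⟩] m

/-- The commutator form on one component. -/
def cq (a b : Fin 4) : Bool := xor (be a b) (be b a)

/-- The commutator form. -/
def cm (x y : XS) : Bool :=
  xor (cq x.f3 y.f3) (xor (cq x.f2 y.f2) (xor (cq x.f1 y.f1) (cq x.f0 y.f0)))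

/-- The squaring form. -/
def sq (x : XS) : Bool :=
  xor (be x.f3 x.f3) (xor (be x.f2 x.f2) (xor (be x.f1 x.f1) (be x.f0 x.f0)))

theorem xr_comm : ∀ a b, xr a b = xr b a := by decide
theorem xr_self : ∀ a, xr a a = 0 := by decide

theorem mul_eq_tw (x y : XS) : x.mul y = (y.mul x).tw (cm x y) := by
  refine XS.ext ?_ (xr_comm _ _) (xr_comm _ _) (xr_comm _ _) (xr_comm _ _)
  simp only [XS.mul, XS.tw, cm, cq]
  generalize be x.f3 y.f3 = a1, be x.f2 y.f2 = a2, be x.f1 y.f1 = a3, be x.f0 y.f0 = a4,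
    be y.f3 x.f3 = b1, be y.f2 x.f2 = b2, be y.f1 x.f1 = b3, be y.f0 x.f0 = b4, x.c = c, y.c = d
  revert a1 a2 a3 a4 b1 b2 b3 b4 c d
  decide +kernel

theorem mul_self (x : XS) : x.mul x = ce (sq x) := by
  refine XS.ext ?_ (xr_self _) (xr_self _) (xr_self _) (xr_self _)
  simp [XS.mul, ce, sq]

/-- The representatives of the sign changes. -/
def U : Fin 4 → SP := ![1, sg 0, sg 1, sg 2]

/-- The exponents of the action of a vector. -/
def sv (v : V) : Fin 4 → ZMod 3 :=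
  ![v 0 + v 1 + v 2, -v 0 + v 1 + v 2, v 0 + -v 1 + v 2, v 0 + v 1 + -v 2]

/-- The action of a vector on the model. -/
def ax (v : V) (x : XS) : XS :=
  ⟨x.c, rot (sv v 0) x.f0, rot (sv v 1) x.f1, rot (sv v 2) x.f2, rot (sv v 3) x.f3⟩

/-- The coset of a change of signs. -/
def nxs : Bool → Bool → Bool → Fin 4 × Bool
  | false, false, false => (0, false)
  | true, false, false => (1, false)
  | false, true, false => (2, false)
  | false, false, true => (3, false)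
  | true, true, true => (0, true)
  | false, true, true => (1, true)
  | true, false, true => (2, true)
  | true, true, false => (3, true)

/-- The action of a signed permutation on the four factors. -/
def nx (a : SP) (m : Fin 4) : Fin 4 × Bool :=
  nxs ((a * U m).e 0) ((a * U m).e 1) ((a * U m).e 2)

/-- The image of an element with one component. -/
def ga (n : Fin 4 × Bool) (y : Fin 4) : XS :=
  if n.2 then (io n.1 (s23 y)).tw (decide (y ≠ 0)) else io n.1 y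

/-- The action given by the data for the four factors. -/
def amn (n0 n1 n2 n3 : Fin 4 × Bool) (x : XS) : XS :=
  (((((ce x.c).mul (ga n0 x.f0)).mul (ga n1 x.f1)).mul (ga n2 x.f2)).mul (ga n3 x.f3))

/-- The action of a signed permutation on the model. -/
def am (a : SP) (x : XS) : XS := amn (nx a 0) (nx a 1) (nx a 2) (nx a 3) x

/-- The permutation part. -/
def pp (a : SP) : SP := ⟨fun _ => false, a.p⟩

theorem U_p (m : Fin 4) : (U m).p = 1 := by fin_cases m <;> rfl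

theorem nx_spec : ∀ (a : SP) (m : Fin 4), a.p 3 = 3 →
    a * U m = U (nx a m).1 * ((if (nx a m).2 then sr else 1) *
      ((if a.e 3 then sg 3 else 1) * pp a)) := by decide +kernel

variable {G : Type*} [Group G]

/-- A power of the central involution. -/
def tp (μ : SP → G) (c : Bool) : G := if c then μ (sg 3) else 1

/-- Representatives in the first quaternion group. -/
def q (ξ : V → G) (i : G) : Fin 4 → G :=
  ![1, i, cj (ξ (ee 0)) i, i * cj (ξ (ee 0)) i]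

/-- Representatives in the four quaternion groups. -/
def B (ξ : V → G) (μ : SP → G) (i : G) (m y : Fin 4) : G := cj (μ (U m)) (q ξ i y)

/-- The embedding of the model. -/
def el (ξ : V → G) (μ : SP → G) (i : G) (x : XS) : G :=
  tp μ x.c * B ξ μ i 0 x.f0 * B ξ μ i 1 x.f1 * B ξ μ i 2 x.f2 * B ξ μ i 3 x.f3

/-- The commutation hypothesis. -/
abbrev HE (ξ : V → G) (μ : SP → G) (i : G) : Prop :=
  ∀ e ∈ E1 ξ i, ∀ e' ∈ E1 ξ i, Commute e (cj (μ (sg 2)) e')

variable {b : Bool} {ξ : V → G} {μ : SP → G} {i : G}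

theorem q_mem (y : Fin 4) : q ξ i y ∈ E1 ξ i := by
  have h1 : i ∈ E1 ξ i := subset_closure (by simp)
  have h2 : cj (ξ (ee 0)) i ∈ E1 ξ i := subset_closure (by simp)
  fin_cases y
  · exact one_mem _
  · exact h1
  · exact h2
  · exact mul_mem h1 h2

section
variable (c : Cfg b ξ μ i)
include c

theorem tp_mul (a d : Bool) : tp μ a * tp μ d = tp μ (xor a d) := by
  cases a <;> cases d <;> simp [tp, c.t2]

theorem tp_inj {a d : Bool} (h : tp μ a = tp μ d) : a = d := by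
  have := c.t1
  cases a <;> cases d <;> simp_all [tp]

omit c in
theorem tp_comm {g : G} (h : Commute g (μ (sg 3))) (a : Bool) : Commute g (tp μ a) := by
  cases a
  · exact Commute.one_right _
  · exact h

theorem xi_t {v : V} (h : v 3 = 0) : Commute (ξ v) (μ (sg 3)) := by
  have k : ∀ v : V, v 3 = 0 → (sg 3).act v = v := by decide +kernel
  exact (c.mxcomm (ok_p rfl) (k v h)).symm

theorem mu_t {a : SP} (h : ok b a) (h3 : a.p 3 = 3) : Commute (μ a) (μ (sg 3)) := by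
  have k : ∀ a : SP, a.p 3 = 3 → a * sg 3 = sg 3 * a := by decide +kernel
  exact c.mcomm h (ok_p rfl) (k a h3)

theorem i_t : Commute i (μ (sg 3)) := by
  rw [← c.i2]; exact (Commute.refl i).mul_right (Commute.refl i)

theorem j2 : cj (ξ (ee 0)) i * cj (ξ (ee 0)) i = μ (sg 3) := by
  rw [← cj_mul, c.i2, cj_fix.mpr (xi_t c rfl)]

theorem j_t : Commute (cj (ξ (ee 0)) i) (μ (sg 3)) := by
  rw [← j2 c]; exact (Commute.refl _).mul_right (Commute.refl _)

theorem k2 : i * cj (ξ (ee 0)) i * (i * cj (ξ (ee 0)) i) = μ (sg 3) := by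
  rw [← c.ij, ← cj_mul, j2 c, cj_fix.mpr (xi_t c rfl)]

theorem ji : cj (ξ (ee 0)) i * i = μ (sg 3) * (i * cj (ξ (ee 0)) i) := by
  have h1 := k2 c
  have h2 := j2 c
  have h3 := c.i2
  have h4 := c.t2
  have h5 := (i_t c).eq
  generalize cj (ξ (ee 0)) i = j at *
  generalize μ (sg 3) = t at *
  have h6 : j * i * j = i := by
    apply mul_left_cancel (a := i)
    rw [h3, ← h1]; group
  calc j * i = j * i * (t * t) := by rw [h4, mul_one]
    _ = j * i * j * j * t := by rw [← h2]; group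
    _ = i * (j * t) := by rw [h6, mul_assoc]
    _ = i * (t * j) := by rw [← h2]; group
    _ = t * (i * j) := by rw [← mul_assoc, h5, mul_assoc]

theorem q_t (y : Fin 4) : Commute (q ξ i y) (μ (sg 3)) := by
  fin_cases y
  · exact Commute.one_left _
  · exact i_t c
  · exact j_t c
  · exact (i_t c).mul_left (j_t c)

theorem q_mul (x y : Fin 4) : q ξ i x * q ξ i y = tp μ (be x y) * q ξ i (xr x y) := by
  have h1 := k2 c
  have h2 := j2 c
  have h3 := c.i2
  have h4 := c.t2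
  have h5 := (i_t c).eq
  have h6 := ji c
  fin_cases x <;> fin_cases y <;> simp [q, tp, be, xr, h1, h2, h3, h6]
  · rw [← mul_assoc, h3]
  · rw [← mul_assoc, h6, mul_assoc, mul_assoc, h2, h5, ← mul_assoc, h4, one_mul]
  · rw [mul_assoc, h6, ← mul_assoc, h5, ← mul_assoc, mul_assoc _ i i, h3, h4, one_mul]
  · rw [mul_assoc, h2, h5]

theorem x0_q (y : Fin 4) : cj (ξ (ee 0)) (q ξ i y) = q ξ i (rot 1 y) := by
  have h3 : cj (ξ (ee 0)) (cj (ξ (ee 0)) (cj (ξ (ee 0)) i)) = i := by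
    rw [← mul_cj, ← mul_cj, ← pow_three', c.cube, one_cj]
  fin_cases y
  · exact cj_one _
  · rfl
  · exact c.ij
  · show cj (ξ (ee 0)) (i * cj (ξ (ee 0)) i) = i
    rw [← c.ij, h3]

theorem q_fix {g : G} (h1 : Commute i g) (h2 : cj g (cj (ξ (ee 0)) i) = cj (ξ (ee 0)) i)
    (y : Fin 4) : cj g (q ξ i y) = q ξ i y := by
  have h1' := cj_fix.mpr h1.symm
  fin_cases y
  · exact cj_one _
  · exact h1'
  · exact h2
  · show cj g (i * cj (ξ (ee 0)) i) = i * cj (ξ (ee 0)) i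
    rw [cj_mul, h1', h2]

theorem xi_q {v : V} (h : v 3 = 0) (y : Fin 4) :
    cj (ξ v) (q ξ i y) = q ξ i (rot (v 0 + v 1 + v 2) y) := by
  have k0 : ∀ u : V, u 3 = 0 → u 0 + u 1 + u 2 = 0 → ∀ y, cj (ξ u) (q ξ i y) = q ξ i y := by
    intro u h3 hs
    have := c.iJ u h3 hs
    refine q_fix c this ?_
    rw [cj_cj_comm (c.comm _ _), cj_fix.mpr this.symm]
  have k1 : ∀ v : V, v 3 = 0 → (v 0 + v 1 + v 2 = 0 ∨
      (v 0 + v 1 + v 2 = 1 ∧ ∃ u : V, u 3 = 0 ∧ u 0 + u 1 + u 2 = 0 ∧ v = ee 0 + u) ∨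
      (v 0 + v 1 + v 2 = 2 ∧ ∃ u : V, u 3 = 0 ∧ u 0 + u 1 + u 2 = 0 ∧ v = ee 0 + ee 0 + u)) := by
    decide +kernel
  have k2 : ∀ y, rot 0 y = y := by decide
  have k3 : ∀ y, rot 2 y = rot 1 (rot 1 y) := by decide
  rcases k1 v h with e | ⟨e, u, h3, hs, rfl⟩ | ⟨e, u, h3, hs, rfl⟩
  · rw [e, k2, k0 v h e]
  · rw [e, c.add, mul_cj, k0 u h3 hs, x0_q c]
  · rw [e, c.add, c.add, mul_cj, mul_cj, k0 u h3 hs, x0_q c, x0_q c, k3]

theorem pp_q {a : SP} (h : ok b a) (h3 : a.p 3 = 3) (y : Fin 4) :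
    cj (μ (pp a)) (q ξ i y) = q ξ i y := by
  have hp : ok b (pp a) := h
  have h1 := c.iS (pp a) hp (fun _ => rfl) h3
  refine q_fix c h1 ?_ y
  have k : ∀ a : SP, a.p 3 = 3 → (pp a).act (ee 0) 3 = 0 ∧
      (pp a).act (ee 0) 0 + (pp a).act (ee 0) 1 + (pp a).act (ee 0) 2 = 1 := by decide +kernel
  have := xi_q c (k a h3).1 1
  rw [(k a h3).2] at this
  rw [cj_cj, cj_fix.mpr h1.symm, c.act _ _ hp]
  exact this

theorem r_q (y : Fin 4) : cj (μ sr) (q ξ i y) = tp μ (decide (y ≠ 0)) * q ξ i (s23 y) := by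
  have hi : i⁻¹ = μ (sg 3) * i := by
    rw [inv_eq_iff_mul_eq_one, ← mul_assoc, (i_t c).eq, mul_assoc, c.i2, c.t2]
  have e1 : cj (μ sr) i = μ (sg 3) * i := by rw [c.ir, hi]
  have e2 : cj (μ sr) (cj (ξ (ee 0)) i) = μ (sg 3) * (i * cj (ξ (ee 0)) i) := by
    have h3 : (sr.act (ee 0)) 3 = 0 := by decide +kernel
    have := xi_q c h3 1
    rw [show rot (sr.act (ee 0) 0 + sr.act (ee 0) 1 + sr.act (ee 0) 2) 1 = 3 by decide +kernel]
      at this
    rw [cj_cj, e1, c.act _ _ (ok_p rfl), cj_mul, cj_fix.mpr (xi_t c h3)]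
    exact congrArg _ this
  fin_cases y
  · simp [q, tp, s23, cj_one]
  · exact e1
  · exact e2
  · show cj (μ sr) (i * cj (ξ (ee 0)) i) = μ (sg 3) * cj (ξ (ee 0)) i
    rw [cj_mul, e1, e2, mul_assoc, ← mul_assoc i, (i_t c).eq, mul_assoc, ← mul_assoc (μ (sg 3)),
      c.t2, one_mul, ← mul_assoc, c.i2]

theorem U_t (m : Fin 4) : Commute (μ (U m)) (μ (sg 3)) :=
  mu_t c (ok_p (U_p m)) (by rw [U_p]; rfl)

theorem cj_tp {g : G} (h : Commute g (μ (sg 3))) (a : Bool) : cj g (tp μ a) = tp μ a :=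
  cj_fix.mpr (tp_comm h a)

theorem B_t (m y : Fin 4) : Commute (B ξ μ i m y) (μ (sg 3)) := by
  have := cj_comm (g := μ (U m)) (q_t c y)
  rwa [cj_fix.mpr (U_t c m)] at this

theorem B_mul (m x y : Fin 4) :
    B ξ μ i m x * B ξ μ i m y = tp μ (be x y) * B ξ μ i m (xr x y) := by
  rw [B, B, ← cj_mul, q_mul c, cj_mul, cj_tp c (U_t c m), B]

omit c in
theorem B_zero (m : Fin 4) : B ξ μ i m 0 = 1 := cj_one _

theorem xi_B {v : V} (h : v 3 = 0) (m y : Fin 4) :
    cj (ξ v) (B ξ μ i m y) = B ξ μ i m (rot (sv v m) y) := by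
  have k : ∀ (v : V) (m : Fin 4), v 3 = 0 → (U m).act ((U m).act v) = v ∧ (U m).act v 3 = 0 ∧
      (U m).act v 0 + (U m).act v 1 + (U m).act v 2 = sv v m := by decide +kernel
  obtain ⟨k1, k2, k3⟩ := k v m h
  rw [B, B, ← k3, ← xi_q c k2, cj_cj (μ (U m)), c.act _ _ (ok_p (U_p m)), k1]

theorem mu_B {a : SP} (h : ok b a) (h3 : a.p 3 = 3) (m y : Fin 4) :
    cj (μ a) (B ξ μ i m y) = if (nx a m).2 then
      tp μ (decide (y ≠ 0)) * B ξ μ i (nx a m).1 (s23 y) else B ξ μ i (nx a m).1 y := by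
  have hp : ok b (pp a) := h
  have h1 : ok b (if a.e 3 then sg 3 else 1) := by split_ifs; exacts [ok_p rfl, ok_one]
  have h2 : ok b (if (nx a m).2 then sr else 1) := by split_ifs; exacts [ok_p rfl, ok_one]
  have e1 : cj (μ (if a.e 3 then sg 3 else 1)) (q ξ i y) = q ξ i y := by
    split_ifs
    · exact cj_fix.mpr (q_t c y).symm
    · rw [c.one, one_cj]
  rw [B, ← mul_cj, ← c.mul _ _ h (ok_p (U_p m)), nx_spec a m h3,
    c.mul _ _ (ok_p (U_p _)) (ok_mul h2 (ok_mul h1 hp)), c.mul _ _ h2 (ok_mul h1 hp),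
    c.mul _ _ h1 hp, mul_cj, mul_cj, mul_cj, pp_q c h h3, e1]
  split_ifs
  · rw [r_q c, cj_mul, cj_tp c (U_t c _), B]
  · rw [c.one, one_cj, B]

variable (hE : HE ξ μ i)
include hE

theorem B_comm {m n : Fin 4} (h : m ≠ n) (x y : Fin 4) :
    Commute (B ξ μ i m x) (B ξ μ i n y) := by
  have e0 : ∀ x y, Commute (B ξ μ i 0 x) (B ξ μ i 3 y) := fun x y => by
    have := hE _ (q_mem x) _ (q_mem y)
    rwa [B, show μ (U 0) = 1 from c.one, one_cj]
  have key : ∀ a : SP, a.ev → a.p 3 = 3 → ∀ x y,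
      Commute (B ξ μ i (nx a 0).1 x) (B ξ μ i (nx a 3).1 y) := by
    intro a ha h3 x y
    have s : ∀ (m y : Fin 4), ∃ y' d, B ξ μ i (nx a m).1 y = tp μ d * cj (μ a) (B ξ μ i m y') := by
      intro m y
      have k : ∀ y, s23 (s23 y) = y := by decide
      cases e : (nx a m).2
      · exact ⟨y, false, by rw [mu_B c (ok_ev ha) h3, e]; simp [tp]⟩
      · refine ⟨s23 y, decide (s23 y ≠ 0), ?_⟩
        rw [mu_B c (ok_ev ha) h3, e, if_pos rfl, ← mul_assoc, tp_mul c, k]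
        simp [tp]
    obtain ⟨x', d, ex⟩ := s 0 x
    obtain ⟨y', d', ey⟩ := s 3 y
    have t1 := tp_comm (B_t c (nx a 3).1 y) d
    rw [ex]
    refine t1.symm.mul_left ?_
    rw [ey]
    refine Commute.mul_right ?_ (cj_comm (e0 _ _))
    have := cj_comm (g := μ a) (tp_comm (B_t c 0 x') d')
    rwa [cj_tp c (mu_t c (ok_ev ha) h3)] at this
  have k : ∀ m n : Fin 4, m ≠ n → ∃ a : SP, a.ev ∧ a.p 3 = 3 ∧ (nx a 0).1 = m ∧ (nx a 3).1 = n := by
    decide +kernel
  obtain ⟨a, ha, h3, rfl, rfl⟩ := k m n h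
  exact key a ha h3 x y

theorem el_mul (x y : XS) : el ξ μ i x * el ξ μ i y = el ξ μ i (x.mul y) := by
  have cb := fun (m n : Fin 4) (h : m ≠ n) => B_comm c hE h
  have ct := fun (m y : Fin 4) (d : Bool) => tp_comm (B_t c m y) d
  have tt : ∀ d d', Commute (tp μ d) (tp μ d') := fun d d' => by
    rw [Commute, SemiconjBy, tp_mul c, tp_mul c, Bool.xor_comm]
  have pull : ∀ (P R : G) (d : Bool), Commute P (tp μ d) → P * (tp μ d * R) = tp μ d * P * R :=
    fun P R d h => by rw [← mul_assoc, h.eq]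
  simp only [el, XS.mul]
  rw [Commute.mul_mul_mul_comm ((((ct _ _ _).mul_right (cb 3 0 (by decide) _ _)).mul_right
      (cb 3 1 (by decide) _ _)).mul_right (cb 3 2 (by decide) _ _)),
    Commute.mul_mul_mul_comm (((ct _ _ _).mul_right (cb 2 0 (by decide) _ _)).mul_right
      (cb 2 1 (by decide) _ _)),
    Commute.mul_mul_mul_comm ((ct _ _ _).mul_right (cb 1 0 (by decide) _ _)),
    Commute.mul_mul_mul_comm (ct 0 _ _), tp_mul c, B_mul c, B_mul c, B_mul c, B_mul c,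
    pull _ _ _ (tt _ _), tp_mul c,
    pull _ _ _ ((tt _ _).mul_left (ct _ _ _)), ← mul_assoc (tp μ _), tp_mul c,
    pull _ _ _ (((tt _ _).mul_left (ct _ _ _)).mul_left (ct _ _ _)), ← mul_assoc (tp μ _),
    ← mul_assoc (tp μ _), tp_mul c,
    pull _ _ _ ((((tt _ _).mul_left (ct _ _ _)).mul_left (ct _ _ _)).mul_left (ct _ _ _)),
    ← mul_assoc (tp μ _), ← mul_assoc (tp μ _), ← mul_assoc (tp μ _), tp_mul c]

omit hE in
theorem el_tw (d : Bool) (x : XS) : el ξ μ i (x.tw d) = tp μ d * el ξ μ i x := by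
  simp only [el, XS.tw, ← tp_mul c, mul_assoc]

omit c hE in
theorem el_ce (d : Bool) : el ξ μ i (ce d) = tp μ d := by simp [el, ce, B_zero]

omit c hE in
theorem el_io (m y : Fin 4) : el ξ μ i (io m y) = B ξ μ i m y := by
  fin_cases m <;> simp [el, io, B_zero, tp]

omit hE in
theorem el_t (x : XS) : Commute (el ξ μ i x) (μ (sg 3)) :=
  ((((tp_comm (Commute.refl _) _).symm.mul_left (B_t c _ _)).mul_left (B_t c _ _)).mul_left
    (B_t c _ _)).mul_left (B_t c _ _)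

theorem el_swap (x y : XS) :
    el ξ μ i x * el ξ μ i y = tp μ (cm x y) * (el ξ μ i y * el ξ μ i x) := by
  rw [el_mul c hE, el_mul c hE, mul_eq_tw, el_tw c]

theorem el_sq (x : XS) : el ξ μ i x * el ξ μ i x = tp μ (sq x) := by
  rw [el_mul c hE, mul_self, el_ce]

theorem el_inj {x y : XS} (h : el ξ μ i x = el ξ μ i y) : x = y := by
  have k : ∀ z, cm x z = cm y z := fun z => by
    have e1 := el_swap c hE x z
    rw [h, el_swap c hE y z] at e1
    exact (tp_inj c (mul_right_cancel e1)).symm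
  have k0 : ∀ a a' : Fin 4, (∀ z, cq a z = cq a' z) → a = a' := by decide
  have z0 : ∀ a, cq a 0 = false := by decide
  have e0 : x.f0 = y.f0 := k0 _ _ fun z => by simpa [cm, io, z0] using k (io 0 z)
  have e1 : x.f1 = y.f1 := k0 _ _ fun z => by simpa [cm, io, z0] using k (io 1 z)
  have e2 : x.f2 = y.f2 := k0 _ _ fun z => by simpa [cm, io, z0] using k (io 2 z)
  have e3 : x.f3 = y.f3 := k0 _ _ fun z => by simpa [cm, io, z0] using k (io 3 z)
  refine XS.ext ?_ e0 e1 e2 e3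
  simp only [el, e0, e1, e2, e3, mul_left_inj] at h
  exact tp_inj c h

omit hE in
theorem xi_el {v : V} (h : v 3 = 0) (x : XS) : cj (ξ v) (el ξ μ i x) = el ξ μ i (ax v x) := by
  simp only [el, ax, cj_mul, xi_B c h, cj_tp c (xi_t c h)]

theorem mu_el {a : SP} (h : ok b a) (h3 : a.p 3 = 3) (x : XS) :
    cj (μ a) (el ξ μ i x) = el ξ μ i (am a x) := by
  have k : ∀ m y, cj (μ a) (B ξ μ i m y) = el ξ μ i (ga (nx a m) y) := fun m y => by
    rw [mu_B c h h3, ga]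
    split_ifs
    · rw [el_tw c, el_io]
    · rw [el_io]
  rw [am, amn, ← el_mul c hE, ← el_mul c hE, ← el_mul c hE, ← el_mul c hE, el_ce, ← k, ← k, ← k,
    ← k]
  simp only [el, cj_mul, cj_tp c (mu_t c h h3)]

theorem el_inv (x : XS) : (el ξ μ i x)⁻¹ = el ξ μ i (x.tw (sq x)) := by
  rw [inv_eq_iff_mul_eq_one, el_tw c, ← mul_assoc, (tp_comm (el_t c x) _).eq, mul_assoc,
    el_sq c hE, tp_mul c]
  simp [tp]

theorem mem_EE {e : G} : e ∈ EE ξ μ i ↔ ∃ x, e = el ξ μ i x := by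
  let R : Subgroup G :=
    { carrier := {e | ∃ x, e = el ξ μ i x}
      one_mem' := ⟨ce false, by rw [el_ce]; rfl⟩
      mul_mem' := by
        rintro _ _ ⟨x, rfl⟩ ⟨y, rfl⟩
        exact ⟨_, el_mul c hE x y⟩
      inv_mem' := by
        rintro _ ⟨x, rfl⟩
        exact ⟨_, el_inv c hE x⟩ }
  constructor
  · intro he
    refine (closure_le R).mpr ?_ he
    rintro _ ⟨a, ha, e, he, rfl⟩
    have h1 : E1 ξ i ≤ R := by
      refine (closure_le R).mpr ?_
      rintro _ (rfl | rfl)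
      · exact ⟨io 0 1, by rw [el_io, B, show μ (U 0) = 1 from c.one, one_cj]; rfl⟩
      · exact ⟨io 0 2, by rw [el_io, B, show μ (U 0) = 1 from c.one, one_cj]; rfl⟩
    obtain ⟨x, rfl⟩ := h1 he
    exact ⟨_, mu_el c hE (ok_p ha) (by rw [ha]; rfl) x⟩
  · rintro ⟨x, rfl⟩
    have hB : ∀ m y, B ξ μ i m y ∈ EE ξ μ i := fun m y =>
      subset_closure ⟨U m, U_p m, _, q_mem y, rfl⟩
    have ht : tp μ x.c ∈ EE ξ μ i := by
      have := mul_mem (hB 0 1) (hB 0 1)
      rw [B_mul c, show xr 1 1 = 0 from rfl, B_zero, mul_one] at this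
      cases x.c
      · exact one_mem _
      · exact this
    exact mul_mem (mul_mem (mul_mem (mul_mem ht (hB _ _)) (hB _ _)) (hB _ _)) (hB _ _)

theorem el_mem (x : XS) : el ξ μ i x ∈ EE ξ μ i := (mem_EE c hE).mpr ⟨x, rfl⟩

theorem t_mem : μ (sg 3) ∈ EE ξ μ i := by
  have := el_mem c hE (ce true)
  rwa [el_ce] at this

theorem E1_le : E1 ξ i ≤ EE ξ μ i := fun e he =>
  subset_closure ⟨1, rfl, e, he, by rw [c.one, one_cj]⟩

theorem comm_t {e : G} (he : e ∈ EE ξ μ i) : Commute e (μ (sg 3)) := by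
  obtain ⟨x, rfl⟩ := (mem_EE c hE).mp he
  exact el_t c x

theorem sq_mem {e : G} (he : e ∈ EE ξ μ i) : e * e = 1 ∨ e * e = μ (sg 3) := by
  obtain ⟨x, rfl⟩ := (mem_EE c hE).mp he
  rw [el_sq c hE]
  cases sq x
  exacts [Or.inl rfl, Or.inr rfl]

theorem swap_mem {e f : G} (he : e ∈ EE ξ μ i) (hf : f ∈ EE ξ μ i) :
    e * f = f * e ∨ e * f = μ (sg 3) * (f * e) := by
  obtain ⟨x, rfl⟩ := (mem_EE c hE).mp he
  obtain ⟨y, rfl⟩ := (mem_EE c hE).mp hf
  rw [el_swap c hE x y]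
  cases cm x y
  exacts [Or.inl (one_mul _), Or.inr rfl]

theorem pow_four {e : G} (he : e ∈ EE ξ μ i) : e ^ 4 = 1 := by
  have : e ^ 4 = e * e * (e * e) := by simp only [pow_succ, pow_zero, one_mul, mul_assoc]
  rcases sq_mem c hE he with h | h <;> rw [this, h]
  exacts [mul_one _, c.t2]

theorem nJ {v : V} (h : v 3 = 0) {e : G} (he : e ∈ EE ξ μ i) : cj (ξ v) e ∈ EE ξ μ i := by
  obtain ⟨x, rfl⟩ := (mem_EE c hE).mp he
  rw [xi_el c h]
  exact el_mem c hE _

theorem nM {a : SP} (h : ok b a) (h3 : a.p 3 = 3) {e : G} (he : e ∈ EE ξ μ i) :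
    cj (μ a) e ∈ EE ξ μ i := by
  obtain ⟨x, rfl⟩ := (mem_EE c hE).mp he
  rw [mu_el c hE h h3]
  exact el_mem c hE _

theorem fpf {k : Fin 4} (hk : k ≠ 3) {e : G} (he : e ∈ EE ξ μ i) :
    e * cj (ξ (ee k)) e * cj (ξ (ee k))⁻¹ e = 1 ∨
      e * cj (ξ (ee k)) e * cj (ξ (ee k))⁻¹ e = μ (sg 3) := by
  obtain ⟨x, rfl⟩ := (mem_EE c hE).mp he
  have k1 : ∀ k : Fin 4, k ≠ 3 → ee k 3 = 0 ∧ (-ee k) 3 = 0 := by decide +kernel
  have k2 : ∀ (k : Fin 4) (x : XS), k ≠ 3 → (x.mul (ax (ee k) x)).mul (ax (-ee k) x) = ce false ∨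
      (x.mul (ax (ee k) x)).mul (ax (-ee k) x) = ce true := by decide +kernel
  rw [← c.neg, xi_el c (k1 k hk).1, xi_el c (k1 k hk).2, el_mul c hE, el_mul c hE]
  rcases k2 k x hk with h | h <;> rw [h, el_ce]
  exacts [Or.inl rfl, Or.inr rfl]

theorem card_EE : Nat.card (EE ξ μ i) = 512 := by
  rw [← card_XS]
  refine (Nat.card_congr (Equiv.ofBijective (fun x => (⟨el ξ μ i x, el_mem c hE x⟩ : EE ξ μ i))
    ⟨fun x y h => el_inj c hE (congrArg Subtype.val h), fun e => ?_⟩)).symm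
  obtain ⟨x, hx⟩ := (mem_EE c hE).mp e.2
  exact ⟨x, Subtype.ext hx.symm⟩

/-- The two groups meet trivially. -/
theorem xi_mem {v : V} (h : ξ v ∈ EE ξ μ i) : v = 0 := by
  have h4 := pow_four c hE h
  rw [pow_succ, c.cube, one_mul] at h4
  exact c.inj v h4

/-- Involutions outside the extraspecial group. -/
theorem inv_conj {e : G} (he : e ∈ EE ξ μ i) {v : V} (hv : v 3 = 0) {a : SP} (ha : a.p = 1)
    (hk : ∃ k, k ≠ 3 ∧ a.e k = true) (h2 : (e * ξ v * μ a) ^ 2 = 1) :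
    ∃ f ∈ EE ξ μ i, ∃ u : V, u 3 = 0 ∧ ∃ a' : SP, a'.p = 1 ∧ (∀ k, k ≠ 3 → a'.e k = a.e k) ∧
      cj (f * ξ u) (e * ξ v * μ a) = μ a' := by
  obtain ⟨k, hk3, hk⟩ := hk
  have ho : ok b a := ok_p ha
  have h3 : a.p 3 = 3 := by rw [ha]; rfl
  have k1 : ∀ a : SP, a.p = 1 → a * a = 1 := by decide +kernel
  have e1 : (e * ξ v * μ a) ^ 2 = e * cj (ξ v) (cj (μ a) e) * (ξ v * μ a * (ξ v * μ a)) := by
    simp only [cj, pow_two]; group
  rw [c.nf_mul ho ho, k1 a ha, c.one, mul_one, h2, eq_comm, mul_eq_one_iff_inv_eq] at e1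
  have e2 : v + a.act v = 0 :=
    xi_mem c hE (e1 ▸ inv_mem (mul_mem he (nJ c hE hv (nM c hE ho h3 he))))
  have e3 : cj (ξ v) (ξ v * μ a) = μ a := by
    have k2 : ∀ u v : V, v + u = 0 → v + v = u := by decide +kernel
    rw [cj_eq, ← mul_assoc, ← c.add, k2 _ _ e2, c.mx ho]
  set e' := cj (ξ v) e with he'
  have m' : e' ∈ EE ξ μ i := nJ c hE hv he
  have e4 : cj (ξ v) (e * ξ v * μ a) = e' * μ a := by rw [mul_assoc, cj_mul, e3]
  have e5 : cj (μ a) e' = e'⁻¹ := by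
    have : (e' * μ a) ^ 2 = 1 := by rw [← e4, ← cj_pow, h2, cj_one]
    have h5 := c.msq ho (k1 a ha)
    rw [eq_inv_iff_mul_eq_one, cj, inv_eq_of_mul_eq_one_left h5]
    have h6 : μ a * e' * μ a * e' = μ a * (e' * μ a) ^ 2 * (μ a)⁻¹ := by rw [pow_two]; group
    rw [h6, this, mul_one, mul_inv_cancel]
  have e6 : cj (μ a) (ξ (ee k)) = (ξ (ee k))⁻¹ := by
    have k3 : ∀ (a : SP) (k : Fin 4), a.p = 1 → a.e k = true → a.act (ee k) = -ee k := by
      decide +kernel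
    rw [c.act _ _ ho, k3 a k ha hk, c.neg]
  have hk0 : ee k 3 = 0 := by
    have k5 : ∀ k : Fin 4, k ≠ 3 → ee k 3 = 0 := by decide +kernel
    exact k5 k hk3
  have mf : cj (ξ (ee k)) e' ∈ EE ξ μ i := nJ c hE hk0 m'
  have e7 : cj (cj (ξ (ee k)) e') (e' * μ a) =
      cj (ξ (ee k)) e' * e' * cj (ξ (ee k))⁻¹ e' * μ a := by
    have : cj (ξ (ee k))⁻¹ e' = cj (μ a) (cj (ξ (ee k)) e')⁻¹ := by
      rw [cj_inv, cj_cj (μ a), e6, e5, cj_inv, inv_inv]
    rw [this]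
    simp only [cj]; group
  have e8 : cj (ξ (ee k)) e' * e' * cj (ξ (ee k))⁻¹ e' = 1 ∨
      cj (ξ (ee k)) e' * e' * cj (ξ (ee k))⁻¹ e' = μ (sg 3) := by
    rcases swap_mem c hE mf m' with h | h <;> rw [h]
    · exact fpf c hE hk3 m'
    · rcases fpf c hE hk3 m' with h' | h' <;> rw [mul_assoc, h']
      exacts [Or.inr (mul_one _), Or.inl c.t2]
  refine ⟨_, mf, v, hv, ?_⟩
  rw [mul_cj, e4, e7]
  rcases e8 with h | h <;> rw [h]
  · exact ⟨a, ha, fun _ _ => rfl, one_mul _⟩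
  · have k4 : ∀ a : SP, a.p = 1 → (sg 3 * a).p = 1 ∧ ∀ k, k ≠ 3 → (sg 3 * a).e k = a.e k := by
      decide +kernel
    exact ⟨sg 3 * a, (k4 a ha).1, (k4 a ha).2, (c.mul _ _ (ok_p rfl) ho).symm⟩

end

end Cfsg.Agent.H5.O8
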