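import Cfsg.Agent.H5.O8xEA
import Cfsg.Agent.H6.O8xEnd0

/-!
# The centre of the extraspecial group and the final identification
-/

set_option autoImplicit false
set_option maxRecDepth 100000
set_option synthInstance.maxSize 100000

namespace Cfsg.Agent.H5.O8

open Subgroup Cfsg.Agent.H3.L43 Cfsg.Agent.H3.O8

variable {G : Type*} [Group G] {b : Bool} {ξ : V → G} {μ : SP → G} {i : G}
  (c : Cfg b ξ μ i) (hE : HE ξ μ i)
include c hE

theorem cm_of_comm {x y : XS} (h : el ξ μ i x * el ξ μ i y = el ξ μ i y * el ξ μ i x) :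
    cm x y = false := by
  have e := el_swap c hE x y
  rw [h] at e
  exact (tp_inj c (a := false) (d := cm x y) (mul_right_cancel ((one_mul _).trans e))).symm

theorem zen {e : G} (he : e ∈ EE ξ μ i) (h : ∀ f ∈ EE ξ μ i, f * e = e * f) :
    e = 1 ∨ e = μ (sg 3) := by
  obtain ⟨x, rfl⟩ := (mem_EE c hE).mp he
  have k : ∀ x : XS, (∀ m y, cm x (io m y) = false) → x = ce false ∨ x = ce true := by
    decide +kernel
  rcases k x fun m y => cm_of_comm c hE (h _ (el_mem c hE _)).symm with e | e <;> rw [e, el_ce]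
  exacts [Or.inl rfl, Or.inr rfl]

theorem ea : H6.O8x.EA ξ μ i :=
  ⟨t_mem c hE, fun _ => comm_t c hE, fun _ => sq_mem c hE, fun _ he _ => swap_mem c hE he,
    fun _ => zen c hE, fun _ h _ => nJ c hE h, card_EE c hE⟩

theorem endN [Finite G] {N : Subgroup G} (A : Amb b ξ μ i N)
    (hC : ∀ g ∈ N, Commute g (μ (sg 3)) → ∃ e ∈ EE ξ μ i, ∃ v a, a.p = 1 ∧ g = e * ξ v * μ a) :
    Nonempty (N ≃* Cfsg.Omega (ZMod 2) (Cfsg.quadFormPlus 4 (ZMod 2))) :=
  (ea c hE).iso c A hC

end Cfsg.Agent.H5.O8
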