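import Cfsg.Agent.H5.CITMain
import Cfsg.Agent.H5.PHFT
import Cfsg.Agent.H2.CITIdent
import Cfsg.Agent.H6.PGL2
import Cfsg.Agent.H4.Small

/-!
# Groups whose element orders are powers of `2` or primes other than `5`
-/

set_option autoImplicit false

namespace Cfsg.Agent.H5

open Subgroup

universe u v

/-- a power of `2` or a prime other than `5` -/
def Ok7 (n : ℕ) : Prop := (∃ k : ℕ, n = 2 ^ k) ∨ (n.Prime ∧ n ≠ 5)

theorem Ok7.of_dvd {m n : ℕ} (h : Ok7 n) (hm : m ∣ n) : Ok7 m := by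
  rcases h with ⟨k, rfl⟩ | h
  · exact .inl (((Nat.dvd_prime_pow Nat.prime_two).1 hm).imp fun _ h => h.2)
  · exact ((Nat.dvd_prime h.1).1 hm).elim (fun e => .inl ⟨0, e⟩) fun e => .inr (e ▸ h)

theorem Ok7.eq_of_dvd {p n : ℕ} (h : Ok7 n) (hp : p.Prime) (h2 : p ≠ 2) (hm : p ∣ n) :
    n = p ∧ p ≠ 5 := by
  rcases h with ⟨k, rfl⟩ | h
  · exact absurd ((Nat.prime_dvd_prime_iff_eq hp Nat.prime_two).1 (hp.dvd_of_dvd_pow hm)) h2
  · have := (Nat.prime_dvd_prime_iff_eq hp h.1).1 hm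
    exact ⟨this.symm, this ▸ h.2⟩

theorem Ok7.not_mul {r s : ℕ} (hr : r.Prime) (hs : s.Prime) (h : r ≠ s) : ¬ Ok7 (r * s) := fun e => by
  wlog h2 : s ≠ 2 generalizing r s
  · exact this hs hr h.symm (mul_comm r s ▸ e) (by omega)
  exact hr.one_lt.ne' ((mul_eq_right₀ hs.ne_zero).1 (e.eq_of_dvd hs h2 (dvd_mul_left _ _)).1)

theorem two_pow_mod_three (n : ℕ) : 2 ^ n % 3 = 1 ∨ 2 ^ n % 3 = 2 := by
  have : ¬ 3 ∣ 2 ^ n := fun h => absurd (Nat.prime_three.dvd_of_dvd_pow h) (by decide)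
  omega

variable {G : Type u} [Group G] [Finite G]

theorem not_five_dvd (h : ∀ g : G, Ok7 (orderOf g)) : ¬ 5 ∣ Nat.card G := fun e => by
  have : Fact (Nat.Prime 5) := ⟨Nat.prime_five⟩
  obtain ⟨x, hx⟩ := exists_prime_orderOf_dvd_card' 5 e
  exact ((hx ▸ h x).eq_of_dvd Nat.prime_five (by decide) dvd_rfl).2 rfl

theorem isCIT_of_ok7 (h : ∀ g : G, Ok7 (orderOf g)) : IsCIT G :=
  H2.isCIT_of_primeGraph fun _ hs h2 ⟨y, hy⟩ => Ok7.not_mul Nat.prime_two hs h2 (hy ▸ h y)

omit [Finite G] in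
theorem ok7_psl2 (h : ∀ g : G, Ok7 (orderOf g)) {q : ℕ} (hq : IsPrimePow q)
    (e : ∀ (F : Type) [Field F] [Fintype F], Fintype.card F = q →
      Nonempty (G ≃* Matrix.ProjectiveSpecialLinearGroup (Fin 2) F)) :
    Ok7 ((q - 1) / Nat.gcd (q - 1) 2) ∧ Ok7 ((q + 1) / Nat.gcd (q + 1) 2) := by
  obtain ⟨F, _, _, hF⟩ := H3.exists_field_of_isPrimePow hq
  obtain ⟨e⟩ := e F hF
  have : ∀ n ∈ Set.range (orderOf : Matrix.ProjectiveSpecialLinearGroup (Fin 2) F → ℕ), Ok7 n := by
    rintro _ ⟨g, rfl⟩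
    exact e.symm.orderOf_eq g ▸ h _
  rw [H6.spec_psl2, hF] at this
  exact ⟨this _ (.inr (.inl dvd_rfl)), this _ (.inr (.inr dvd_rfl))⟩

theorem not_sylTI_of_ok7 (h : ∀ g : G, Ok7 (orderOf g)) (he : Even (Nat.card G))
    (hns : ¬ Group.IsSolvable G) : ¬ SylTI G := fun hT => by
  rcases H2.ti_ident.{0} (isCIT_of_ok7 h) hT he hns with ⟨n, h1, h2, h4⟩ | ⟨m, -, h2, -⟩
  · obtain ⟨h5, h6⟩ := ok7_psl2 h (Nat.prime_two.isPrimePow.pow (by omega : n ≠ 0)) h4
    have h7 : Even (2 ^ n) := (Nat.even_pow' (by omega)).2 even_two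
    rw [Nat.coprime_two_right.2 (Nat.Even.sub_odd Nat.one_le_two_pow h7 odd_one), Nat.div_one] at h5
    rw [Nat.coprime_two_right.2 h7.add_one, Nat.div_one] at h6
    rcases two_pow_mod_three n with h8 | h8
    · have := (h5.eq_of_dvd Nat.prime_three (by decide) (by omega)).1
      exact not_five_dvd h (h2 ▸ Dvd.dvd.mul_left (by omega) _)
    · have := (h6.eq_of_dvd Nat.prime_three (by decide) (by omega)).1
      rw [show 2 ^ n = 2 by omega] at h2
      exact hns (H4.Small.isSolvable_of_card_dvd_60 (by rw [h2]; decide) (by rw [h2]; decide))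
  · refine not_five_dvd h (h2 ▸ Dvd.dvd.mul_right (Dvd.dvd.mul_left ?_ _) _)
    rw [← pow_mul, show (2 * m + 1) * 2 = 4 * m + 2 by ring, pow_add, pow_mul]
    have : (2 ^ 4) ^ m % 5 = 1 := by simp [Nat.pow_mod]
    omega

omit [Finite G] in
theorem exists_relIndex_dvd_orderOf {P : Subgroup G} (hP : (Nat.card P).Prime) :
    ∃ g : G, (centralizer (P : Set G)).relIndex (normalizer (P : Set G)) ∣ orderOf g := by
  have := Fact.mk hP
  have := isCyclic_of_prime_card (α := P) rfl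
  have : IsCyclic (MulAut P) := (IsCyclic.mulAutMulEquiv P).isCyclic.2 inferInstance
  obtain ⟨⟨_, g, rfl⟩, hg⟩ := IsCyclic.exists_ofOrder_eq_natCard (α := P.normalizerMonoidHom.range)
  refine ⟨g, ?_⟩
  rw [relIndex, ← normalizerMonoidHom_ker, index_ker, ← hg, ← orderOf_coe, orderOf_coe g]
  exact orderOf_map_dvd _ g

theorem card_ne_336 (h : ∀ g : G, Ok7 (orderOf g)) : Nat.card G ≠ 336 := fun e => by
  have : Fact (Nat.Prime 7) := ⟨by decide⟩
  obtain ⟨P⟩ : Nonempty (Sylow 7 G) := inferInstance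
  have h1 : Nat.card P = 7 := by
    rw [P.card_eq_multiplicity, e, show 336 = 7 * 48 from rfl,
      Nat.factorization_mul_apply_of_coprime (by decide), Nat.Prime.factorization_self (by decide),
      Nat.factorization_eq_zero_of_not_dvd (by decide)]
    rfl
  obtain ⟨g, hg⟩ := exists_relIndex_dvd_orderOf (P := (P : Subgroup G)) (by rw [h1]; decide)
  obtain ⟨y, hy⟩ := exists_prime_orderOf_dvd_card' (G := P) 7 h1.symm.dvd
  rw [← orderOf_coe] at hy
  have h2 : centralizer (P : Set G) = P := by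
    have := isCyclic_of_prime_card (α := P) h1
    refine P.3 (fun x => ⟨1, Subtype.ext (orderOf_dvd_iff_pow_eq_one.1 ?_)⟩) (le_centralizer _)
    by_cases h3 : 7 ∣ orderOf (x : G)
    · exact (((h _).eq_of_dvd (by decide) (by decide) h3).1).dvd
    have h4 := (Commute.orderOf_mul_eq_mul_orderOf_of_coprime (x.2 y y.2)
      (by rw [hy]; exact (Nat.Prime.coprime_iff_not_dvd (by decide)).2 h3))
    rw [hy] at h4
    have h5 := ((h _).eq_of_dvd (p := 7) (by decide) (by decide) ⟨_, h4⟩).1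
    rw [show orderOf (x : G) = 1 by omega]
    exact one_dvd _
  have h3 := card_mul_index (normalizer (P : Set G))
  have h4 : _ % 7 = 1 := card_sylow_modEq_one 7 G
  have h5 := H9.FT.card_mul_relIndex (le_normalizer (H := (P : Subgroup G)))
  rw [Sylow.coe_coe] at h5 hg
  rw [h2] at hg
  rw [← P.card_eq_index_normalizer, ← h5, h1, e] at h3
  generalize Nat.card (Sylow 7 G) = n at h3 h4
  generalize (P : Subgroup G).relIndex _ = m at h3 hg
  have h6 : n ∣ 48 := ⟨m, by linarith⟩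
  have h7 := Nat.le_of_dvd (by decide) h6
  refine Ok7.not_mul Nat.prime_two Nat.prime_three (by decide) ((h g).of_dvd (.trans ?_ hg))
  interval_cases n <;> omega

theorem psl2_seven_aux (n : ℕ) : ∀ (G : Type u) [Group G] [Finite G], Nat.card G = n →
    (∀ g : G, Ok7 (orderOf g)) → ¬ Group.IsSolvable G → Nat.card G = 168 ∧
      ∀ (F : Type v) [Field F] [Finite F], Nat.card F = 7 →
        Nonempty (G ≃* Matrix.ProjectiveSpecialLinearGroup (Fin 2) F) := by
  induction n using Nat.strong_induction_on with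
  | _ n ih =>
  intro G _ _ hn h hns
  have hG := isCIT_of_ok7 h
  have he : Even (Nat.card G) := Nat.not_odd_iff_even.1 fun e => hns (H9.FT.feitThompson G e)
  by_cases hO : Cfsg.pCore 2 G = ⊥
  swap
  · obtain ⟨h1, h2⟩ := H2.quot_even_of_cit hG he hns
    refine absurd (hG.sylTI_quotient hO) (not_sylTI_of_ok7 (fun g => ?_) h1 h2)
    obtain ⟨g, rfl⟩ := QuotientGroup.mk'_surjective _ g
    exact (h g).of_dvd (orderOf_map_dvd _ g)
  rcases cit_main.{v} hG hO with hT | ⟨⟨N, hN⟩, -⟩ | ⟨q, m, h1, h2, h3, h4, -, h5⟩ | ⟨h1, -⟩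
  · exact absurd hT (not_sylTI_of_ok7 h he hns)
  · have h1 := N.card_mul_index
    have := normal_of_index_eq_two hN
    have h2 := Nat.card_pos (α := N)
    rw [hN] at h1
    have h3 := (ih _ (by omega) N rfl (fun g => orderOf_coe g ▸ h g) fun e => hns
      ((Group.isSolvable_iff_subgroup_quotient N).2 ⟨e, H4.Small.isSolvable_of_card_dvd_60
        (by rw [← index, hN]; decide) (by rw [← index, hN]; decide)⟩)).1
    exact absurd (by omega) (card_ne_336 h)
  · obtain rfl : q = 7 := by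
      rcases h3 with rfl | h3
      · exact absurd (by omega) (not_five_dvd h)
      obtain ⟨h6, h7⟩ := ok7_psl2 h h3.isPrimePow fun F _ _ hF => by
        obtain ⟨F', _, _, hF'⟩ : ∃ (F : Type v) (_ : Field F) (_ : Fintype F),
          Fintype.card F = q := ⟨ULift F, inferInstance, inferInstance, by simpa using hF⟩
        obtain ⟨e⟩ := h5 F' (by rwa [Nat.card_eq_fintype_card])
        exact ⟨e.trans (H6.pslCongr (FiniteField.ringEquivOfCardEq (hF'.trans hF.symm)))⟩
      have h8 : 2 ^ 2 ≤ 2 ^ m := Nat.pow_le_pow_right two_pos h1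
      have h9 : ¬ 3 ∣ q := fun e => by
        have := (Nat.prime_dvd_prime_iff_eq Nat.prime_three h3).1 e
        omega
      rw [pow_succ] at h2
      rw [Nat.gcd_eq_right (by omega)] at h6 h7
      have := two_pow_mod_three m
      rcases h2 with h2 | h2
      · have := (h7.eq_of_dvd Nat.prime_three (by decide) (by omega)).1
        omega
      · have := (h6.eq_of_dvd Nat.prime_three (by decide) (by omega)).1
        omega
    exact ⟨by omega, h5⟩
  · exact absurd (h1 ▸ by decide) (not_five_dvd h)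

end Cfsg.Agent.H5
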