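import Cfsg.Agent.H5.CITMain
import Cfsg.Agent.H2.SzGraph
import Cfsg.Agent.H4.Small
import Cfsg.Agent.H6.PGL2
import Cfsg.Agent.L0.NineA6

/-!
# Groups whose element orders are at most five
-/

set_option autoImplicit false

namespace Cfsg.Agent.H5

open Subgroup H4.Small

variable {G : Type*} [Group G] [Finite G]

theorem isCIT_of_le_five (h : ∀ g : G, orderOf g ≤ 5) : IsCIT G :=
  H2.isCIT_of_primeGraph fun s hs h2 ⟨y, hy⟩ => by
    have := h y
    have := hs.two_le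
    omega

theorem pow_eq_one_of_le_five {H : Type*} [Group H] (h : ∀ g : G, orderOf g ≤ 5) (φ : G →* H)
    {p : ℕ} (hp : p.Prime) (h3 : 3 ≤ p) {x : G} (h1 : φ x ≠ 1) (h2 : φ x ^ p = 1) : x ^ p = 1 := by
  have : Fact p.Prime := ⟨hp⟩
  have h4 := orderOf_map_dvd φ x
  rw [orderOf_eq_prime h2 h1] at h4
  obtain ⟨c, hc⟩ := h4
  have h5 := h x
  have h6 := orderOf_pos x
  have h7 : c = 1 := by
    rcases c with _ | _ | c
    · omega
    · rfl
    · nlinarith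
  rw [← mul_one p, ← h7, ← hc, pow_orderOf_eq_one]

omit [Finite G] in
theorem pow_four_of_le_five (h : ∀ g : G, orderOf g ≤ 5) {x : G} (hx : TwoEl x) : x ^ 4 = 1 := by
  obtain ⟨k, hk⟩ := twoEl_iff_orderOf.1 hx
  have h1 := h x
  rw [← orderOf_dvd_iff_pow_eq_one, hk]
  rw [hk] at h1
  have : k ≤ 2 := by
    by_contra h2
    have := Nat.pow_le_pow_right two_pos (not_le.1 h2)
    omega
  exact pow_dvd_pow 2 this

omit [Finite G] in
/-- An element of order three acting without fixed points is self-adjoint for the commutator. -/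
theorem commute_conj_of_cube {a x : G} (hx : x ^ 3 = 1) (h1 : (a * x) ^ 3 = 1)
    (h2 : (a * x⁻¹) ^ 3 = 1) : a * (x * a * x⁻¹) = x * a * x⁻¹ * a := by
  have hx' : x * x = x⁻¹ := eq_inv_of_mul_eq_one_left (by rw [← hx, pow_succ, pow_two])
  have hx'' : x⁻¹ * x⁻¹ = x := by rw [← mul_inv_rev, hx', inv_inv]
  have e1 : a * (x * a * x⁻¹) * (x⁻¹ * a * x) = 1 := by
    rw [← h1, pow_succ, pow_two]
    calc _ = a * x * a * (x⁻¹ * x⁻¹) * a * x := by group
      _ = _ := by rw [hx'']; group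
  have e2 : a * (x⁻¹ * a * x) * (x * a * x⁻¹) = 1 := by
    rw [← h2, pow_succ, pow_two]
    calc _ = a * x⁻¹ * a * (x * x) * a * x⁻¹ := by group
      _ = _ := by rw [hx']; group
  have e3 : x * a * x⁻¹ * a * (x⁻¹ * a * x) = 1 := by
    calc _ = x * a * x⁻¹ * (a * (x⁻¹ * a * x) * (x * a * x⁻¹)) * (x * a * x⁻¹)⁻¹ := by group
      _ = 1 := by rw [e2]; group
  exact mul_right_cancel (e1.trans e3.symm)

/-- A second `3`-cycle. -/
def b3 : alternatingGroup (Fin 5) :=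
  ⟨Equiv.swap 0 1 * Equiv.swap 0 3, by rw [Equiv.Perm.mem_alternatingGroup]; decide⟩

theorem b3_pow : b3 ^ 3 = 1 := Subtype.ext (by decide)
theorem b3_ne : b3 ≠ 1 := fun h => absurd (congrArg Subtype.val h) (by decide)
theorem ab3_pow : (a3 * b3) ^ 3 = 1 := Subtype.ext (by decide)
theorem ab3_ne : a3 * b3 ≠ 1 := fun h => absurd (congrArg Subtype.val h) (by decide)
theorem ab3_comm : a3 * b3 * (b3 * a3)⁻¹ ≠ 1 := fun h =>
  absurd (congrArg Subtype.val h) (by decide)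

omit [Finite G] in
theorem eq_top_of_alt5 {φ : G →* alternatingGroup (Fin 5)} (hφ : Function.Surjective φ)
    {C : Subgroup G} [hC : C.Normal] (h1 : φ.ker ≤ C) {g : G} (hg : g ∈ C) (h2 : φ g ≠ 1) :
    C = ⊤ := by
  have hs : IsSimpleGroup (alternatingGroup (Fin 5)) := alternatingGroup.isSimpleGroup (by simp)
  rcases (hC.map φ hφ).eq_bot_or_eq_top with h | h
  · exact absurd (h.le ⟨g, hg, rfl⟩) h2
  · rw [← sup_eq_left.2 h1, ← comap_map_eq, h, comap_top]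

/-- Elements acting trivially on `Q / Z(Q)`. -/
def centMod (Q : Subgroup G) [hQ : Q.Normal] : Subgroup G where
  carrier := {g | ∀ a ∈ Q, ∀ b ∈ Q, a * (g * b * g⁻¹ * b⁻¹) = g * b * g⁻¹ * b⁻¹ * a}
  one_mem' := by simp
  mul_mem' := by
    intro g g' hg hg' a ha b hb
    have e1 := hg a ha _ (hQ.conj_mem b hb g')
    have e2 := hg' a ha b hb
    calc _ = a * (g * (g' * b * g'⁻¹) * g⁻¹ * (g' * b * g'⁻¹)⁻¹) * (g' * b * g'⁻¹ * b⁻¹) := by group
      _ = g * (g' * b * g'⁻¹) * g⁻¹ * (g' * b * g'⁻¹)⁻¹ * (a * (g' * b * g'⁻¹ * b⁻¹)) := by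
        rw [e1]; group
      _ = _ := by rw [e2]; group
  inv_mem' := by
    intro g hg a ha b hb
    have e1 := hg a ha _ (hQ.conj_mem b hb g⁻¹)
    have : Commute a (g * (g⁻¹ * b * g⁻¹⁻¹) * g⁻¹ * (g⁻¹ * b * g⁻¹⁻¹)⁻¹) := e1
    have := this.inv_right.eq
    calc _ = a * (g * (g⁻¹ * b * g⁻¹⁻¹) * g⁻¹ * (g⁻¹ * b * g⁻¹⁻¹)⁻¹)⁻¹ := by group
      _ = _ := by rw [this]; group

instance centMod_normal (Q : Subgroup G) [hQ : Q.Normal] : (centMod Q).Normal := ⟨by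
  intro g hg k a ha b hb
  have e1 := hg _ (hQ.conj_mem a ha k⁻¹) _ (hQ.conj_mem b hb k⁻¹)
  calc _ = k * (k⁻¹ * a * k⁻¹⁻¹ * (g * (k⁻¹ * b * k⁻¹⁻¹) * g⁻¹ * (k⁻¹ * b * k⁻¹⁻¹)⁻¹)) * k⁻¹ := by
        group
    _ = _ := by rw [e1]; group⟩

theorem comm_of_class_two (h : ∀ g : G, orderOf g ≤ 5) {φ : G →* alternatingGroup (Fin 5)}
    (hφ : Function.Surjective φ) (hQ : IsPGroup 2 φ.ker)
    (hc : ∀ a ∈ φ.ker, ∀ b ∈ φ.ker, ∀ c ∈ φ.ker,
      c * (a * b * a⁻¹ * b⁻¹) = a * b * a⁻¹ * b⁻¹ * c) :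
    ∀ a ∈ φ.ker, ∀ b ∈ φ.ker, a * b = b * a := by
  have hn : ∀ {a : G}, a ∈ φ.ker → ∀ g, g * a * g⁻¹ ∈ φ.ker := fun ha g =>
    (MonoidHom.normal_ker φ).conj_mem _ ha g
  have key : ∀ x : G, φ x ≠ 1 → φ x ^ 3 = 1 → ∀ a ∈ φ.ker, ∀ b ∈ φ.ker,
      a * (x * b * x⁻¹) * a⁻¹ * (x * b * x⁻¹)⁻¹ =
        (x * a * x⁻¹) * b * (x * a * x⁻¹)⁻¹ * b⁻¹ := by
    intro x hx1 hx3
    have k : ∀ a ∈ φ.ker, a * (x * a * x⁻¹) = x * a * x⁻¹ * a := fun a ha => by
      have ha' : φ a = 1 := ha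
      refine commute_conj_of_cube (pow_eq_one_of_le_five h φ Nat.prime_three le_rfl hx1 hx3)
        (pow_eq_one_of_le_five h φ Nat.prime_three le_rfl ?_ ?_)
        (pow_eq_one_of_le_five h φ Nat.prime_three le_rfl ?_ ?_)
      · rwa [map_mul, ha', one_mul]
      · rwa [map_mul, ha', one_mul]
      · rwa [map_mul, ha', one_mul, map_inv, inv_ne_one]
      · rw [map_mul, ha', one_mul, map_inv, inv_pow, hx3, inv_one]
    intro a ha b hb
    have e1 := k a ha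
    have e2 := k b hb
    have e3 := k _ (mul_mem ha hb)
    rw [show x * (a * b) * x⁻¹ = x * a * x⁻¹ * (x * b * x⁻¹) by group] at e3
    have ha' := hn ha x
    have hb' := hn hb x
    generalize x * a * x⁻¹ = a' at *
    generalize x * b * x⁻¹ = b' at *
    have e6 : Commute a _ := hc _ ha' _ hb _ ha
    have e7 : Commute a' _ := hc _ ha _ hb' _ ha'
    have e8 : (a' * b * a'⁻¹ * b⁻¹)⁻¹ * (a * a' * (b * b')) =
        (a * b' * a⁻¹ * b'⁻¹)⁻¹ * (a * a' * (b * b')) := by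
      calc _ = (a' * b * a'⁻¹ * b⁻¹)⁻¹ * a * (a' * b * b') := by group
        _ = a * b * (a' * b') := by rw [← e6.inv_right.eq]; group
        _ = a' * (a * b' * a⁻¹ * b'⁻¹)⁻¹ * (a * (b' * b)) := by rw [e3]; group
        _ = _ := by rw [e7.inv_right.eq, e1, e2]; group
    exact (inv_injective (mul_right_cancel e8)).symm
  obtain ⟨x, hx⟩ := hφ a3
  obtain ⟨y, hy⟩ := hφ b3
  have k1 := key x (hx ▸ a3_ne) (hx ▸ a3_pow)
  have k2 := key y (hy ▸ b3_ne) (hy ▸ b3_pow)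
  have k3 := key (x * y) (by rw [map_mul, hx, hy]; exact ab3_ne)
    (by rw [map_mul, hx, hy]; exact ab3_pow)
  have k4 : x * y * (y * x)⁻¹ ∈ centMod φ.ker := by
    intro a ha b hb
    obtain ⟨c, hc', rfl⟩ : ∃ c ∈ φ.ker, b = y * (x * c * x⁻¹) * y⁻¹ :=
      ⟨_, hn hb (y * x)⁻¹, by group⟩
    obtain ⟨d, hd, rfl⟩ : ∃ d ∈ φ.ker,
        a = y * (x * c * x⁻¹) * y⁻¹ * d⁻¹ * (y * (x * c * x⁻¹) * y⁻¹)⁻¹ :=
      ⟨_, hn (inv_mem ha) (y * (x * c * x⁻¹) * y⁻¹)⁻¹, by group⟩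
    have e1 := k3 d hd c hc'
    have e2 := k1 _ (hn hd y) c hc'
    have e3 := k2 d hd _ (hn hc' x)
    rw [show x * y * d * (x * y)⁻¹ = x * (y * d * y⁻¹) * x⁻¹ by group, ← e2, ← e3] at e1
    rw [show x * y * (y * x)⁻¹ * (y * (x * c * x⁻¹) * y⁻¹) * (x * y * (y * x)⁻¹)⁻¹ =
      x * y * c * (x * y)⁻¹ by group]
    generalize x * y * c * (x * y)⁻¹ = P at e1 ⊢
    generalize y * (x * c * x⁻¹) * y⁻¹ = R at e1 ⊢
    calc _ = d⁻¹ * (d * R * d⁻¹ * R⁻¹) * (P * R⁻¹) := by group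
      _ = _ := by rw [← e1]; group
  have k5 := eq_top_of_alt5 hφ (C := centMod φ.ker) (fun q hq a ha b hb => hc q hq b hb a ha) k4
    (by rw [map_mul, map_inv, map_mul, map_mul, hx, hy]; exact ab3_comm)
  intro a ha b hb
  have k6 : x ∈ centMod φ.ker := k5 ▸ mem_top x
  have := (isCIT_of_le_five h).mem_of_comm_mem (N := φ.ker ⊓ centralizer φ.ker)
    (hQ.to_inf_left) (x := x) (y := b) (fun h2 => a3_ne (hx ▸ (h2.map φ).eq_one_of_pow_odd
      (by decide : Odd 3) (hx ▸ a3_pow))) (fun c hc => Normal.conj_mem inferInstance c hc x)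
    (fun c hc => twoEl_of_mem hQ (mul_mem hc.1 hb))
    ⟨φ.ker.mul_mem (hn hb x) (inv_mem hb), fun c hc => k6 c hc b hb⟩
  exact this.2 a ha

theorem sq_eq_one_of_comm (h : ∀ g : G, orderOf g ≤ 5) {φ : G →* alternatingGroup (Fin 5)}
    (hφ : Function.Surjective φ) (hQ : IsPGroup 2 φ.ker)
    (hc : ∀ a ∈ φ.ker, ∀ b ∈ φ.ker, a * b = b * a) : ∀ a ∈ φ.ker, a ^ 2 = 1 := by
  have hn : ∀ {a : G}, a ∈ φ.ker → ∀ g, g * a * g⁻¹ ∈ φ.ker := fun ha g =>
    (MonoidHom.normal_ker φ).conj_mem _ ha g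
  let D : Subgroup G := centralizer {x | ∃ a ∈ φ.ker, a ^ 2 = x}
  have : D.Normal := ⟨fun g hg k => by
    rintro _ ⟨a, ha, rfl⟩
    have e := hg _ ⟨_, hn ha k⁻¹, rfl⟩
    rw [conj_pow] at e
    calc _ = k * (k⁻¹ * a ^ 2 * k⁻¹⁻¹ * g) * k⁻¹ := by group
      _ = _ := by rw [e]; group⟩
  obtain ⟨u, hu⟩ := hφ (a3 * a5)
  obtain ⟨x, hx⟩ := hφ a3
  have k0 : ∀ a ∈ φ.ker, (a * u) ^ 2 ∈ φ.ker := fun a ha => by
    rw [MonoidHom.mem_ker, map_pow, map_mul, hu, show φ a = 1 from ha, one_mul, a35_pow]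
  have k1 : ∀ a ∈ φ.ker, (a * u) ^ 4 = 1 := fun a ha =>
    pow_four_of_le_five h (TwoEl.of_pow (j := 1) (twoEl_of_mem hQ (k0 a ha)))
  have k2 : u ∈ D := by
    rintro _ ⟨a, ha, rfl⟩
    have e1 := k1 a ha
    have e2 := k1 1 (one_mem _)
    have e3 := k0 1 (one_mem _)
    have e4 := pow_four_of_le_five h (twoEl_of_mem hQ ha)
    rw [one_mul] at e2 e3
    have e5 : Commute (a * (u * a * u⁻¹)) (u ^ 2) := hc _ (mul_mem ha (hn ha u)) _ e3
    have e6 : Commute a (u * a * u⁻¹) := hc _ ha _ (hn ha u)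
    rw [show 4 = 2 * 2 from rfl, pow_mul, show (a * u) ^ 2 = a * (u * a * u⁻¹) * u ^ 2 by
      simp only [pow_two]; group, e5.mul_pow, ← pow_mul, e2, mul_one, e6.mul_pow, conj_pow] at e1
    rw [show 4 = 2 + 2 from rfl, pow_add] at e4
    exact (mul_inv_eq_iff_eq_mul.1 (mul_left_cancel (e1.trans e4.symm))).symm
  have k3 := eq_top_of_alt5 hφ (C := D) (fun q hq => by
    rintro _ ⟨a, ha, rfl⟩
    exact hc _ (pow_mem ha 2) q hq) k2 (hu ▸ a35_ne)
  intro a ha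
  have k4 : x ∈ D := k3 ▸ mem_top x
  exact (isCIT_of_le_five h).eq_one (x := x) (fun h2 => a3_ne (hx ▸ (h2.map φ).eq_one_of_pow_odd
      (by decide : Odd 3) (hx ▸ a3_pow))) (twoEl_of_mem hQ (pow_mem ha 2))
      (k4 _ ⟨a, ha, rfl⟩).symm

universe u

theorem elem_of_le_five_aux (n : ℕ) : ∀ (G : Type u) [Group G] [Finite G], Nat.card G = n →
    (∀ g : G, orderOf g ≤ 5) → ∀ φ : G →* alternatingGroup (Fin 5), Function.Surjective φ →
      IsPGroup 2 φ.ker → Cfsg.IsElementaryAbelian 2 φ.ker := by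
  induction n using Nat.strong_induction_on with
  | _ n ih =>
  intro G _ _ hn h φ hφ hQ
  suffices hc : ∀ a ∈ φ.ker, ∀ b ∈ φ.ker, a * b = b * a from
    ⟨⟨⟨fun a b => Subtype.ext (hc a a.2 b b.2)⟩⟩, sq_eq_one_of_comm h hφ hQ hc⟩
  by_cases h0 : φ.ker = ⊥
  · intro a ha b _
    rw [h0, mem_bot] at ha
    rw [ha, one_mul, mul_one]
  have : (omegaZ φ.ker).Normal := ⟨fun a ha g =>
    conj_mem_omegaZ (by rw [normalizer_eq_top]; exact mem_top g) ha⟩
  obtain ⟨z, hz, hz1⟩ := exists_mem_omegaZ hQ h0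
  have hlt : Nat.card (G ⧸ omegaZ φ.ker) < n := by
    rw [← hn, card_eq_card_quotient_mul_card_subgroup (omegaZ φ.ker)]
    exact lt_mul_of_one_lt_right Nat.card_pos
      ((one_lt_card_iff_ne_bot _).2 fun e => hz1 (mem_bot.1 (e ▸ hz)))
  let ψ : G ⧸ omegaZ φ.ker →* alternatingGroup (Fin 5) := QuotientGroup.lift _ φ (omegaZ_le _)
  have h1 := ih _ hlt (G ⧸ omegaZ φ.ker) rfl (fun g => by
      obtain ⟨g, rfl⟩ := QuotientGroup.mk_surjective g
      exact (Nat.le_of_dvd (orderOf_pos g) (orderOf_map_dvd (QuotientGroup.mk' _) g)).trans (h g))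
    ψ (fun y => let ⟨x, hx⟩ := hφ y; ⟨x, hx⟩) (isPGroup_two_iff.2 fun g hg => by
      obtain ⟨g, rfl⟩ := QuotientGroup.mk_surjective g
      exact (twoEl_of_mem hQ hg).map (QuotientGroup.mk' _))
  refine comm_of_class_two h hφ hQ fun a ha b hb c hc => ?_
  have h2 : (a : G ⧸ omegaZ φ.ker) * b = b * a :=
    congrArg Subtype.val (h1.1.1.1 (⟨a, ha⟩ : ψ.ker) ⟨b, hb⟩)
  have h3 : a * b * a⁻¹ * b⁻¹ ∈ omegaZ φ.ker := by
    rw [← QuotientGroup.eq_one_iff]
    simp only [QuotientGroup.mk_mul, QuotientGroup.mk_inv]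
    rw [h2]
    group
  exact (h3.2.2 c hc).symm

/-- **Higman**: a `2`-group extended by `Alt(5)` with element orders at most five is elementary
abelian. -/
theorem elem_of_le_five (h : ∀ g : G, orderOf g ≤ 5) {φ : G →* alternatingGroup (Fin 5)}
    (hφ : Function.Surjective φ) (hQ : IsPGroup 2 φ.ker) : Cfsg.IsElementaryAbelian 2 φ.ker :=
  elem_of_le_five_aux _ G rfl h φ hφ hQ

theorem alt5_of_sylTI (h : ∀ g : G, orderOf g ≤ 5) (hT : SylTI G) (he : Even (Nat.card G))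
    (hns : ¬ Group.IsSolvable G) (h3 : 3 ∣ Nat.card G) :
    Nonempty (G ≃* alternatingGroup (Fin 5)) := by
  rcases H2.ti_ident.{0} (isCIT_of_le_five h) hT he hns with ⟨n, h1, h2, h4⟩ | ⟨m, -, h2, -⟩
  · obtain ⟨F, _, _, hF⟩ := H3.exists_field_of_isPrimePow
      (Nat.prime_two.isPrimePow.pow (by omega : n ≠ 0))
    obtain ⟨e⟩ := h4 F hF
    have h5 : 2 ^ n + 1 ∈ Set.range (orderOf : Matrix.ProjectiveSpecialLinearGroup (Fin 2) F → ℕ) := by
      rw [H6.spec_psl2, hF]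
      refine Or.inr (Or.inr ?_)
      rw [Nat.coprime_two_right.2 ((Nat.even_pow' (by omega)).2 even_two).add_one, Nat.div_one]
    obtain ⟨g, hg⟩ := h5
    have h6 := h (e.symm g)
    rw [MulEquiv.orderOf_eq, hg] at h6
    have h7 : n ≤ 2 := by
      by_contra h8
      have := Nat.pow_le_pow_right two_pos (not_le.1 h8)
      omega
    interval_cases n
    · exact absurd (isSolvable_of_card_dvd_60 (by rw [h2]; decide) (by rw [h2]; decide)) hns
    · exact alt5_of_not_isSolvable h2 hns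
  · exact absurd (h2 ▸ h3) (H2.not_three_dvd_suzuki m)

/-- Groups with element orders at most five and order divisible by `30`. -/
theorem cases_of_le_five (h : ∀ g : G, orderOf g ≤ 5) (h2 : 2 ∣ Nat.card G) (h3 : 3 ∣ Nat.card G)
    (h5 : 5 ∣ Nat.card G) :
    Nonempty (G ≃* alternatingGroup (Fin 6)) ∨ ∃ φ : G →* alternatingGroup (Fin 5),
      Function.Surjective φ ∧ IsPGroup 2 φ.ker := by
  have hG := isCIT_of_le_five h
  have hns : ¬ Group.IsSolvable G := H2.not_isSolvable_of_coclique Nat.prime_three Nat.prime_five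
    (by decide) (by decide) (by decide) h2 h3 h5
    (fun s hs h2 ⟨y, hy⟩ => by have := h y; have := hs.two_le; omega)
    (fun ⟨y, hy⟩ => by have := h y; omega)
  have h7 : ¬ 7 ∣ Nat.card G := fun h7 => by
    have : Fact (Nat.Prime 7) := ⟨by decide⟩
    obtain ⟨x, hx⟩ := exists_prime_orderOf_dvd_card' 7 h7
    have := h x
    omega
  by_cases hO : Cfsg.pCore 2 G = ⊥
  · rcases cit_main.{0} hG hO with hT | ⟨-, x, hx⟩ | ⟨q, n, h6, h8, -, h9, ⟨c, hc⟩, -⟩ | ⟨h6, -⟩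
    · obtain ⟨e⟩ := alt5_of_sylTI h hT (even_iff_two_dvd.2 h2) hns h3
      refine Or.inr ⟨e.toMonoidHom, e.surjective, ?_⟩
      rw [(MonoidHom.ker_eq_bot_iff _).2 e.injective]
      exact IsPGroup.of_bot
    · have := Nat.le_of_dvd (orderOf_pos x) hx
      have := h x
      omega
    · have h10 := h c
      rw [hc] at h10
      have h11 : n ≤ 2 := by
        by_contra h8
        have := Nat.pow_le_pow_right two_pos (not_le.1 h8)
        omega
      obtain rfl : n = 2 := by omega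
      rcases h8 with rfl | h8
      · refine Or.inl (L0.Nine.alt6_of_card (by omega) fun x y hc hx hy => ?_)
        by_contra h12
        rw [not_or] at h12
        have : Fact (Nat.Prime 3) := ⟨Nat.prime_three⟩
        have h13 := orderOf_eq_prime hx h12.1
        have h14 := Commute.orderOf_mul_eq_mul_orderOf_of_coprime hc (h13 ▸ hy.symm)
        have h15 := h (x * y)
        have h16 := orderOf_pos y
        have h17 : orderOf y ≠ 1 := fun e => h12.2 (orderOf_eq_one_iff.1 e)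
        rw [h14, h13] at h15
        omega
      · obtain rfl : q = 7 := by omega
        omega
    · omega
  · obtain ⟨k1, k2⟩ := H2.quot_even_of_cit hG (even_iff_two_dvd.2 h2) hns
    obtain ⟨e⟩ := alt5_of_sylTI (G := G ⧸ Cfsg.pCore 2 G) (fun g => by
      obtain ⟨g, rfl⟩ := QuotientGroup.mk_surjective g
      exact (Nat.le_of_dvd (orderOf_pos g) (orderOf_map_dvd (QuotientGroup.mk' _) g)).trans (h g))
      (hG.sylTI_quotient hO) k1 k2 ((H2.dvd_card_quot_pCore Nat.prime_three (by decide)).2 h3)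
    refine Or.inr ⟨e.toMonoidHom.comp (QuotientGroup.mk' _),
      e.surjective.comp (QuotientGroup.mk'_surjective _), ?_⟩
    rw [← MonoidHom.comap_ker, (MonoidHom.ker_eq_bot_iff _).2 e.injective, MonoidHom.comap_bot,
      QuotientGroup.ker_mk']
    exact H7.pCore_isPGroup 2 G

end Cfsg.Agent.H5
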