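import Cfsg.Agent.H5.SpecSix
import Cfsg.Agent.H2.GF16

/-!
# The affine group `2^4 : SL₂(4)`
-/

set_option autoImplicit false
set_option backward.isDefEq.respectTransparency false

namespace Cfsg.Agent.H5

open Subgroup H4.Small H2 Matrix

variable {G : Type*} [Group G] [Finite G]

omit [Finite G] in
theorem not_twoEl_of_a3 {φ : G →* alternatingGroup (Fin 5)} {x : G} (hx : φ x = a3) :
    ¬ TwoEl x := fun h2 =>
  a3_ne (hx ▸ (h2.map φ).eq_one_of_pow_odd (by decide : Odd 3) (hx ▸ a3_pow))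

theorem spec_of_alt5 (h : ∀ g : G, orderOf g ≤ 5) {φ : G →* alternatingGroup (Fin 5)}
    (hφ : Function.Surjective φ) (hQ : IsPGroup 2 φ.ker) (h0 : φ.ker ≠ ⊥) :
    Set.range (orderOf : G → ℕ) = {1, 2, 3, 4, 5} := by
  have : Fact (Nat.Prime 3) := ⟨Nat.prime_three⟩
  obtain ⟨x, hx⟩ := hφ a3
  obtain ⟨y, hy⟩ := hφ a5
  obtain ⟨u, hu⟩ := hφ (a3 * a5)
  obtain ⟨v, hv, hv1, hv2⟩ := exists_involution_mem hQ h0
  have hE := elem_of_le_five h hφ hQ
  have hc : ∀ a ∈ φ.ker, ∀ b ∈ φ.ker, a * b = b * a := fun a ha b hb =>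
    congrArg Subtype.val (hE.1.1.1 (⟨a, ha⟩ : φ.ker) ⟨b, hb⟩)
  apply Set.Subset.antisymm
  · rintro _ ⟨g, rfl⟩
    have h1 := h g
    have h2 := orderOf_pos g
    simp only [Set.mem_insert_iff, Set.mem_singleton_iff]
    omega
  · intro k hk
    simp only [Set.mem_insert_iff, Set.mem_singleton_iff] at hk
    rcases hk with rfl | rfl | rfl | rfl | rfl
    · exact ⟨1, orderOf_one⟩
    · exact ⟨v, orderOf_eq_two_iff'.2 ⟨hv1, hv2⟩⟩
    · exact ⟨x, orderOf_eq_prime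
        (pow_eq_one_of_le_five h φ Nat.prime_three le_rfl (hx ▸ a3_ne) (hx ▸ a3_pow))
        fun e => a3_ne (by rw [← hx, e, map_one])⟩
    · by_contra h4
      have k1 : ∀ a ∈ φ.ker, a * u * (a * u) = 1 := fun a ha => by
        have e1 : (a * u) ^ 2 ∈ φ.ker := by
          rw [MonoidHom.mem_ker, map_pow, map_mul, hu, show φ a = 1 from ha, one_mul, a35_pow]
        have e2 := pow_four_of_le_five h (TwoEl.of_pow (j := 1) (twoEl_of_mem hQ e1))
        by_contra e3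
        exact h4 ⟨a * u, orderOf_eq_prime_pow (p := 2) (n := 1) (by rwa [pow_one, pow_two]) e2⟩
      have k2 : u ∈ centralizer (φ.ker : Set G) := fun a ha => by
        have e1 := k1 a ha
        have e2 := k1 1 (one_mem _)
        have e3 := hE.2 a ha
        rw [one_mul] at e2
        rw [pow_two] at e3
        rw [← inv_eq_of_mul_eq_one_left e1, _root_.mul_inv_rev, inv_eq_of_mul_eq_one_left e2,
          inv_eq_of_mul_eq_one_left e3]
      have k3 := eq_top_of_alt5 hφ (C := centralizer (φ.ker : Set G))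
        (fun q hq a ha => hc a ha q hq) k2 (hu ▸ a35_ne)
      have k4 : x ∈ centralizer (φ.ker : Set G) := k3 ▸ mem_top x
      exact hv1 ((isCIT_of_le_five h).eq_one (not_twoEl_of_a3 hx) (twoEl_of_sq hv2)
        (k4 v hv).symm)
    · exact ⟨y, orderOf_eq_prime
        (pow_eq_one_of_le_five h φ Nat.prime_five (by decide) (hy ▸ a5_ne) (hy ▸ a5_pow))
        fun e => a5_ne (by rw [← hy, e, map_one])⟩

/-- The extension splits. -/
theorem exists_section_alt5 (h : ∀ g : G, orderOf g ≤ 5) {φ : G →* alternatingGroup (Fin 5)}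
    (hφ : Function.Surjective φ) (hQ : IsPGroup 2 φ.ker) :
    ∃ ψ : alternatingGroup (Fin 5) →* G, ∀ k, φ (ψ k) = k := by
  obtain ⟨x, hx⟩ := hφ a3
  obtain ⟨u, hu⟩ := hφ (a3 * a5)
  obtain ⟨y, hy⟩ := hφ (a3 * a5 * (a3 * (a3 * a5) * a3⁻¹))
  have hn : ∀ g, g ∈ normalizer (φ.ker : Set G) := fun g => by
    rw [normalizer_eq_top]; exact mem_top g
  obtain ⟨d, hd, h1, -⟩ := (isCIT_of_le_five h).exists_involution_inverting hQ (x := y) (u := u)
    (fun h2 => absurd (hy ▸ (h2.map φ).eq_one_of_pow_odd (by decide : Odd 5)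
      (hy ▸ Subtype.ext (by decide +kernel)))
      fun h => absurd (congrArg Subtype.val h) (by decide +kernel)) (hn y)
    (TwoEl.of_pow (j := 1) (twoEl_of_mem hQ (by rw [MonoidHom.mem_ker, map_pow, hu, pow_one, a35_pow])))
    (hn u) (by
      rw [MonoidHom.mem_ker, map_mul, map_mul, map_mul, map_inv, hu, hy]
      exact Subtype.ext (by decide +kernel))
  have h2 : φ (x⁻¹ * (d * u)) = a5 := by
    rw [map_mul, map_mul, map_inv, hx, hu, show φ d = 1 from hd]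
    group
  obtain ⟨ψ, h3, h4⟩ := exists_hom_alt5 (x := x) (y := x⁻¹ * (d * u))
    (pow_eq_one_of_le_five h φ Nat.prime_three le_rfl (hx ▸ a3_ne) (hx ▸ a3_pow))
    (pow_eq_one_of_le_five h φ Nat.prime_five (by decide) (h2 ▸ a5_ne) (h2 ▸ a5_pow))
    (by rw [mul_inv_cancel_left, pow_two, h1])
  refine ⟨ψ, fun k => DFunLike.congr_fun (MonoidHom.eq_of_eqOn_dense closure_a35
    (f := φ.comp ψ) (g := MonoidHom.id _) ?_) k⟩
  rintro _ (rfl | rfl)
  · simp [h3, hx]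
  · simp only [MonoidHom.comp_apply, h4, h2, MonoidHom.id_apply]

/-- `SL₂(4)`. -/
abbrev SL24 : Type := SpecialLinearGroup (Fin 2) GF4

/-- A primitive cube root of unity. -/
def w4 : GF4 := GF4.mk 2

/-- A transvection. -/
def t4 : SL24 := ⟨!![1, 1; 0, 1], by decide +kernel⟩
/-- The Weyl element. -/
def s4 : SL24 := ⟨!![0, 1; 1, 0], by decide +kernel⟩
/-- A diagonal element. -/
def d4 : SL24 := ⟨!![w4, 0; 0, w4 * w4], by decide +kernel⟩

theorem exists_equiv_sl24 : ∃ e : alternatingGroup (Fin 5) ≃* SL24,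
    e a3 = t4 * s4 ∧ e a5 = (t4 * s4)⁻¹ * (d4 * t4 * d4⁻¹) := by
  obtain ⟨ρ, h1, h2⟩ := exists_hom_alt5 (x := t4 * s4) (y := (t4 * s4)⁻¹ * (d4 * t4 * d4⁻¹))
    (Subtype.ext (by decide +kernel)) (Subtype.ext (by decide +kernel))
    (Subtype.ext (by decide +kernel))
  have hs : IsSimpleGroup (alternatingGroup (Fin 5)) := alternatingGroup.isSimpleGroup (by simp)
  have h3 : Function.Injective ρ := by
    rw [← MonoidHom.ker_eq_bot_iff]
    refine (MonoidHom.normal_ker ρ).eq_bot_or_eq_top.resolve_right fun e => ?_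
    have : ρ a3 = 1 := e.ge (mem_top a3)
    exact absurd (congrArg Subtype.val (h1.symm.trans this)) (by decide +kernel)
  exact ⟨MulEquiv.ofBijective ρ (h3.bijective_of_nat_card_le (by
    rw [card_alt5, H3.card_sl2, GF4.card])), h1, h2⟩

/-- The affine subgroup of `SL₃(4)`. -/
def aff4 : Subgroup (SpecialLinearGroup (Fin 3) GF4) where
  carrier := {M | (M : Matrix (Fin 3) (Fin 3) GF4) 2 0 = 0 ∧
    (M : Matrix (Fin 3) (Fin 3) GF4) 2 1 = 0 ∧ (M : Matrix (Fin 3) (Fin 3) GF4) 2 2 = 1}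
  one_mem' := by simp
  mul_mem' := by
    rintro M N ⟨h1, h2, h3⟩ ⟨h4, h5, h6⟩
    simp [Matrix.mul_apply, Fin.sum_univ_three, h1, h2, h3, h4, h5, h6]
  inv_mem' := by
    rintro M ⟨h1, h2, h3⟩
    have h := M.det_coe
    rw [Matrix.det_fin_three, h1, h2, h3] at h
    change adjugate M.1 2 0 = 0 ∧ adjugate M.1 2 1 = 0 ∧ adjugate M.1 2 2 = 1
    rw [Matrix.adjugate_fin_three, h1, h2, h3]
    refine ⟨by simp, by simp, ?_⟩
    simp only [of_apply, cons_val]
    linear_combination h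

/-- The linear part. -/
def aff4Lin : aff4 →* SL24 :=
  MonoidHom.mk' (fun M => ⟨!![M.1.1 0 0, M.1.1 0 1; M.1.1 1 0, M.1.1 1 1], by
    obtain ⟨h1, h2, h3⟩ := M.2
    have h := M.1.det_coe
    rw [Matrix.det_fin_three, h1, h2, h3] at h
    rw [det_fin_two_of]
    linear_combination h⟩) fun M N => by
    obtain ⟨h1, h2, h3⟩ := N.2
    refine Subtype.ext ?_
    ext i j
    fin_cases i <;> fin_cases j <;> simp [Matrix.mul_apply, Fin.sum_univ_three, h1, h2]

/-- The translation part. -/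
def aff4Vec (M : aff4) : Fin 2 → GF4 := ![M.1.1 0 2, M.1.1 1 2]

theorem aff4Vec_mul (M N : aff4) :
    aff4Vec (M * N) = aff4Vec M + (aff4Lin M).1 *ᵥ aff4Vec N := by
  obtain ⟨h1, h2, h3⟩ := N.2
  ext i
  fin_cases i <;>
    simp [aff4Vec, aff4Lin, Matrix.mul_apply, Fin.sum_univ_three, h3] <;> ring

theorem aff4_eq_one {M : aff4} (h1 : aff4Lin M = 1) (h2 : aff4Vec M = 0) : M = 1 := by
  obtain ⟨h3, h4, h5⟩ := M.2
  have h6 := congrArg Subtype.val h1
  have h7 := congrFun (congrFun h6 0) 0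
  have h8 := congrFun (congrFun h6 0) 1
  have h9 := congrFun (congrFun h6 1) 0
  have h10 := congrFun (congrFun h6 1) 1
  have h11 := congrFun h2 0
  have h12 := congrFun h2 1
  simp [aff4Lin, aff4Vec] at h7 h8 h9 h10 h11 h12
  refine Subtype.ext (Subtype.ext ?_)
  ext i j
  fin_cases i <;> fin_cases j <;> simp [*]

theorem exists_aff4 (k : SL24) (b : Fin 2 → GF4) : ∃ M : aff4, aff4Lin M = k ∧ aff4Vec M = b := by
  refine ⟨⟨⟨!![k.1 0 0, k.1 0 1, b 0; k.1 1 0, k.1 1 1, b 1; 0, 0, 1], ?_⟩, rfl, rfl, rfl⟩,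
    Subtype.ext ?_, ?_⟩
  · have h := k.det_coe
    rw [det_fin_two] at h
    simpa [det_fin_three] using h
  · ext i j
    fin_cases i <;> fin_cases j <;> rfl
  · ext i
    fin_cases i <;> rfl

omit [Finite G] in
theorem nonempty_equiv_aff4 (σ : SL24 →* G) (E : (Fin 2 → GF4) → G)
    (h1 : ∀ b c, E (b + c) = E b * E c) (h2 : ∀ k b, σ k * E b * (σ k)⁻¹ = E (k.1 *ᵥ b))
    (h3 : ∀ b k, E b * σ k = 1 → k = 1 ∧ b = 0) (h4 : ∀ g, ∃ b k, E b * σ k = g) :
    Nonempty (G ≃* aff4) := by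
  let Φ : aff4 →* G := MonoidHom.mk' (fun M => E (aff4Vec M) * σ (aff4Lin M)) fun M N => by
    rw [aff4Vec_mul, h1, ← h2, map_mul, map_mul]
    group
  refine ⟨(MulEquiv.ofBijective Φ ⟨(injective_iff_map_eq_one Φ).2 fun M hM => ?_, fun g => ?_⟩).symm⟩
  · exact aff4_eq_one (h3 _ _ hM).1 (h3 _ _ hM).2
  · obtain ⟨b, k, rfl⟩ := h4 g
    obtain ⟨M, rfl, rfl⟩ := exists_aff4 k b
    exact ⟨M, rfl⟩

omit [Finite G] in
theorem pow_eq_of_mod_two {v : G} (h : v ^ 2 = 1) {a b : ℕ} (e : a % 2 = b % 2) : v ^ a = v ^ b := by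
  rw [pow_eq_pow_mod a h, e, ← pow_eq_pow_mod b h]

omit [Finite G] in
theorem exists_fixed_of_comm {N : Subgroup G} [hN : N.Normal]
    (hc : ∀ a ∈ N, ∀ b ∈ N, a * b = b * a) (h2 : ∀ a ∈ N, a ^ 2 = 1) {t j v : G} (ht : t * t = 1)
    (hj : t * j = j * t) (hv : v ∈ N) (hv1 : v ≠ 1) (hjv : j * v = v * j) :
    ∃ u ∈ N, u ≠ 1 ∧ t * u = u * t ∧ j * u = u * j := by
  by_cases h : t * v = v * t
  · exact ⟨v, hv, hv1, h, hjv⟩
  refine ⟨v * (t * v * t⁻¹), mul_mem hv (hN.conj_mem v hv t), fun e => h ?_, ?_, ?_⟩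
  · rw [← mul_inv_eq_iff_eq_mul]
    exact mul_left_cancel (e.trans (by rw [← pow_two, h2 v hv]))
  · calc _ = t * v * t⁻¹ * (t * t) * v * t⁻¹ := by group
      _ = t * v * t⁻¹ * v * t := by rw [ht, inv_eq_of_mul_eq_one_left ht]; group
      _ = _ := by rw [← hc _ hv _ (hN.conj_mem v hv t)]
  · exact (Commute.mul_right hjv ((Commute.mul_right hj.symm hjv).mul_right
      (Commute.inv_right hj.symm))).eq

theorem equiv_aff4_of_minimal (h : ∀ g : G, orderOf g ≤ 5) {φ : G →* alternatingGroup (Fin 5)}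
    (hφ : Function.Surjective φ) (hQ : IsPGroup 2 φ.ker) (h0 : φ.ker ≠ ⊥)
    (hmin : ∀ M : Subgroup G, M.Normal → M ≠ ⊥ → M ≤ φ.ker → φ.ker ≤ M) :
    Nonempty (G ≃* aff4) := by
  have hE := elem_of_le_five h hφ hQ
  have hc : ∀ a ∈ φ.ker, ∀ b ∈ φ.ker, a * b = b * a := fun a ha b hb =>
    congrArg Subtype.val (hE.1.1.1 (⟨a, ha⟩ : φ.ker) ⟨b, hb⟩)
  have hn : ∀ {a : G}, a ∈ φ.ker → ∀ g, g * a * g⁻¹ ∈ φ.ker := fun ha g =>
    (MonoidHom.normal_ker φ).conj_mem _ ha g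
  obtain ⟨ψ, hψ⟩ := exists_section_alt5 h hφ hQ
  obtain ⟨e, he1, he2⟩ := exists_equiv_sl24
  let σ : SL24 →* G := ψ.comp e.symm.toMonoidHom
  have hσ : ∀ k, φ (σ k) = e.symm k := fun k => hψ _
  have rel : ∀ {k l : SL24}, k = l → σ k = σ l := fun h => h ▸ rfl
  have cube : ∀ k : SL24, k ≠ 1 → k ^ 3 = 1 → ∀ a ∈ φ.ker,
      σ k * (σ k * a * (σ k)⁻¹) * (σ k)⁻¹ = a * (σ k * a * (σ k)⁻¹) := fun k hk1 hk a ha => by
    have e1 : φ (a * σ k) = e.symm k := by rw [map_mul, show φ a = 1 from ha, one_mul, hσ]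
    have e2 := pow_eq_one_of_le_five h φ Nat.prime_three le_rfl (x := a * σ k)
      (by rwa [e1, Ne, MulEquiv.map_eq_one_iff]) (by rw [e1, ← map_pow, hk, map_one])
    have e3 : σ k ^ 3 = 1 := by rw [← map_pow, hk, map_one]
    have e4 := hE.2 _ (mul_mem ha (hn ha (σ k)))
    rw [pow_two] at e4
    refine mul_left_cancel (a := a * (σ k * a * (σ k)⁻¹)) ?_
    rw [e4, ← e2, ← mul_one (_ * (_ * _ * _)), ← e3]
    simp only [pow_succ, pow_zero]
    group
  obtain ⟨v₀, hv₀, hv₀1, -⟩ := exists_involution_mem hQ h0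
  have ht : σ t4 * σ t4 = 1 := by
    rw [← map_mul, ← map_one σ]; exact rel (Subtype.ext (by decide +kernel))
  have hj : σ (d4⁻¹ * t4 * d4) * σ (d4⁻¹ * t4 * d4) = 1 := by
    rw [← map_mul, ← map_one σ]; exact rel (Subtype.ext (by decide +kernel))
  obtain ⟨v₁, hv₁, hv₁1, hv₁t, -⟩ := exists_fixed_of_comm hc hE.2 ht (j := 1) (by simp) hv₀ hv₀1
    (by simp)
  obtain ⟨v, hv, hv1, hvj, hvt⟩ := exists_fixed_of_comm hc hE.2 hj (j := σ t4) (by
    rw [← map_mul, ← map_mul]; exact rel (Subtype.ext (by decide +kernel))) hv₁ hv₁1 hv₁t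
  set v' := σ d4 * v * (σ d4)⁻¹ with hv'
  have hv'm : v' ∈ φ.ker := hn hv _
  have hv't : σ t4 * v' = v' * σ t4 := by
    rw [map_mul, map_mul, map_inv] at hvj
    calc _ = σ d4 * ((σ d4)⁻¹ * σ t4 * σ d4 * v) * (σ d4)⁻¹ := by rw [hv']; group
      _ = _ := by rw [hvj, hv']; group
  have hvv : Commute v v' := hc v hv v' hv'm
  let f : GF4 → G := fun a => v ^ (a.toNat % 2) * v' ^ (a.toNat / 2)
  have fm : ∀ a, f a ∈ φ.ker := fun a => mul_mem (pow_mem hv _) (pow_mem hv'm _)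
  have fadd : ∀ a b, f (a + b) = f a * f b := fun a b => by
    simp only [f]
    rw [mul_assoc, ← mul_assoc (v' ^ _), ← (hvv.pow_pow _ _).eq, mul_assoc, ← mul_assoc (v ^ _),
      ← pow_add, ← pow_add]
    congr 1
    · exact pow_eq_of_mod_two (hE.2 v hv) (by revert a b; decide +kernel)
    · exact pow_eq_of_mod_two (hE.2 v' hv'm) (by revert a b; decide +kernel)
  have fd : ∀ a, σ d4 * f a * (σ d4)⁻¹ = f (w4 * a) := fun a => by
    have e1 := cube d4 (fun h => absurd (congrArg Subtype.val h) (by decide +kernel))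
      (Subtype.ext (by decide +kernel)) v hv
    rw [← hv'] at e1
    simp only [f]
    rw [← conj_mul, ← conj_pow, ← conj_pow, ← hv', e1, hvv.mul_pow, ← mul_assoc,
      ← (hvv.pow_pow _ _).eq, mul_assoc, ← pow_add]
    congr 1
    · exact pow_eq_of_mod_two (hE.2 v hv) (by revert a; decide +kernel)
    · exact pow_eq_of_mod_two (hE.2 v' hv'm) (by revert a; decide +kernel)
  have ft : ∀ a, σ t4 * f a * (σ t4)⁻¹ = f a := fun a => mul_inv_eq_iff_eq_mul.2
    ((Commute.pow_right hvt _).mul_right (Commute.pow_right hv't _)).eq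
  have hs : σ s4 * σ s4 = 1 := by
    rw [← map_mul, ← map_one σ]; exact rel (Subtype.ext (by decide +kernel))
  have fs : ∀ a, σ s4 * (σ s4 * a * (σ s4)⁻¹) * (σ s4)⁻¹ = a := fun a => by
    calc _ = σ s4 * σ s4 * a * (σ s4 * σ s4)⁻¹ := by group
      _ = a := by rw [hs]; group
  let E : (Fin 2 → GF4) → G := fun b => f (b 0) * (σ s4 * f (b 1) * (σ s4)⁻¹)
  have Em : ∀ b, E b ∈ φ.ker := fun b => mul_mem (fm _) (hn (fm _) _)
  have Eadd : ∀ b c, E (b + c) = E b * E c := fun b c => by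
    simp only [E, Pi.add_apply, fadd]
    rw [← conj_mul, mul_assoc (f (b 0)), mul_assoc (f (b 0)), ← mul_assoc (f (c 0)),
      hc _ (fm _) _ (hn (fm _) _), mul_assoc (σ s4 * f (b 1) * (σ s4)⁻¹)]
  have E0 : E 0 = 1 := left_eq_mul.1 ((congrArg E (add_zero 0).symm).trans (Eadd 0 0))
  have E1 : E ![1, 0] = v := by
    simp only [E, f, cons_val_zero, cons_val_one]
    rw [show GF4.toNat 1 = 1 from rfl, show GF4.toNat 0 = 0 from rfl]
    simp
  let C : Subgroup SL24 :=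
    { carrier := {k | ∀ b, σ k * E b * (σ k)⁻¹ = E (k.1 *ᵥ b)}
      one_mem' := fun b => by simp
      mul_mem' := fun {k l} hk hl b => by
        rw [show (k * l).1 = k.1 * l.1 from rfl, ← mulVec_mulVec, ← hk, ← hl, map_mul]; group
      inv_mem' := fun {k} hk b => by
        have := hk (k⁻¹.1 *ᵥ b)
        rw [mulVec_mulVec, show k.1 * k⁻¹.1 = 1 from congrArg Subtype.val (mul_inv_cancel k),
          one_mulVec] at this
        rw [← this, map_inv]; group }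
  have Cs : s4 ∈ C := fun b => by
    have e1 : (s4.1 *ᵥ b) 0 = b 1 := by simp [s4, mulVec, dotProduct]
    have e2 : (s4.1 *ᵥ b) 1 = b 0 := by simp [s4, mulVec, dotProduct]
    simp only [E]
    rw [e1, e2, ← conj_mul, fs, hc _ (fm _) _ (hn (fm _) _)]
  have Ct : t4 ∈ C := fun b => by
    have e1 : (t4.1 *ᵥ b) 0 = b 0 + b 1 := by simp [t4, mulVec, dotProduct]
    have e2 : (t4.1 *ᵥ b) 1 = b 1 := by simp [t4, mulVec, dotProduct]
    have e3 := cube (t4 * s4) (fun h => absurd (congrArg Subtype.val h) (by decide +kernel))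
      (Subtype.ext (by decide +kernel)) _ (hn (fm (b 1)) (σ s4))
    have e4 : σ (t4 * s4) * (σ s4 * f (b 1) * (σ s4)⁻¹) * (σ (t4 * s4))⁻¹ = f (b 1) := by
      calc _ = σ t4 * (σ s4 * (σ s4 * f (b 1) * (σ s4)⁻¹) * (σ s4)⁻¹) * (σ t4)⁻¹ := by
            rw [map_mul]; group
        _ = _ := by rw [fs, ft]
    rw [e4, map_mul] at e3
    simp only [E]
    rw [e1, e2, fadd, ← conj_mul, ft, mul_assoc (f (b 0)), hc _ (fm (b 1)) _ (hn (fm _) _), ← e3]
    group
  have Cd : d4 ∈ C := fun b => by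
    have e1 : (d4.1 *ᵥ b) 0 = w4 * b 0 := by simp [d4, mulVec, dotProduct]
    have e2 : (d4.1 *ᵥ b) 1 = w4 * (w4 * b 1) := by simp [d4, mulVec, dotProduct, mul_assoc]
    have e3 : σ d4 * σ s4 = σ s4 * σ d4 * σ d4 := by
      simp only [← map_mul]; exact rel (Subtype.ext (by decide +kernel))
    simp only [E]
    rw [e1, e2, ← conj_mul, fd, ← fd (w4 * b 1), ← fd (b 1)]
    congr 1
    calc _ = σ d4 * σ s4 * f (b 1) * (σ d4 * σ s4)⁻¹ := by group
      _ = _ := by rw [e3]; simp only [mul_assoc, _root_.mul_inv_rev]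
  have hC : ∀ k, k ∈ C := fun k => by
    obtain ⟨k, rfl⟩ := e.surjective k
    have : closure {a3, a5} ≤ C.comap e.toMonoidHom := (closure_le _).2 (by
      rintro _ (rfl | rfl)
      · exact (he1 ▸ mul_mem Ct Cs : e a3 ∈ C)
      · exact (he2 ▸ mul_mem (inv_mem (mul_mem Ct Cs)) (mul_mem (mul_mem Cd Ct) (inv_mem Cd)) :
          e a5 ∈ C))
    exact this (closure_a35 ▸ mem_top k)
  have dec : ∀ g : G, g * (σ (e (φ g)))⁻¹ ∈ φ.ker := fun g => by
    rw [MonoidHom.mem_ker, map_mul, map_inv, hσ, e.symm_apply_apply, mul_inv_cancel]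
  let U : Subgroup G :=
    { carrier := Set.range E
      one_mem' := ⟨0, E0⟩
      mul_mem' := by rintro _ _ ⟨b, rfl⟩ ⟨c, rfl⟩; exact ⟨_, Eadd b c⟩
      inv_mem' := by
        rintro _ ⟨b, rfl⟩
        exact ⟨b, eq_inv_of_mul_eq_one_left (by rw [← pow_two, hE.2 _ (Em b)])⟩ }
  have hU := hmin U ⟨by
      rintro _ ⟨b, rfl⟩ g
      refine ⟨(e (φ g)).1 *ᵥ b, ?_⟩
      have e1 := hc _ (dec g) _ (Em ((e (φ g)).1 *ᵥ b))
      rw [← mul_inv_eq_iff_eq_mul] at e1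
      rw [← e1, ← hC _ b]; group⟩
    (fun e => hv1 (mem_bot.1 (e ▸ (⟨_, E1⟩ : v ∈ U)))) (by rintro _ ⟨b, rfl⟩; exact Em b)
  refine nonempty_equiv_aff4 σ E Eadd hC (fun b k hbk => ?_) fun g => ?_
  · have e1 := congrArg φ hbk
    rw [map_mul, show φ (E b) = 1 from Em b, one_mul, hσ, map_one, MulEquiv.map_eq_one_iff] at e1
    refine ⟨e1, by_contra fun hb => hv1 ?_⟩
    rw [e1, map_one, mul_one] at hbk
    have : ∃ k : SL24, k.1 *ᵥ b = ![1, 0] := by
      by_cases hb0 : b 0 = 0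
      · have hb1 : b 1 ≠ 0 := fun hb1 => hb (by ext i; fin_cases i <;> assumption)
        refine ⟨⟨!![0, (b 1)⁻¹; -b 1, 0], by simp [hb1]⟩, ?_⟩
        ext i; fin_cases i <;> simp [mulVec, dotProduct, hb0, hb1]
      · refine ⟨⟨!![(b 0)⁻¹, 0; -b 1, b 0], by simp [hb0]⟩, ?_⟩
        ext i; fin_cases i <;> simp [mulVec, dotProduct, hb0, mul_comm]
    obtain ⟨k, hk⟩ := this
    rw [← E1, ← hk, ← hC k b, hbk]; group
  · obtain ⟨b, hb⟩ := hU (dec g)
    exact ⟨b, e (φ g), by rw [hb]; group⟩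

end Cfsg.Agent.H5
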