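import Cfsg.Agent.L0.SyA
import Cfsg.Agent.H8.Jordan

/-! Jordan's theorem on cycles of prime length, in the form needed for S3580. -/

set_option autoImplicit false
set_option linter.unusedSectionVars false

namespace Cfsg.Agent.L0.Sy

open Finset Pn MulAction
open scoped Pointwise

variable {G : Type} [Group G] [Finite G] {Ω : Type} [Fintype Ω] [DecidableEq Ω] [MulAction G Ω]
  {T : Type} [Fintype T] [DecidableEq T] [MulAction G T]
  {p : ℕ} [hp : Fact p.Prime] {P : Sylow p G} {K X Y H : Subgroup G} {O W Λ : Finset Ω} {n : ℕ}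

/-- the action of `H` on an invariant set -/
@[reducible] def act5 (hI : Inv H O) : MulAction H O where
  smul g x := ⟨g.1 • x.1, hI _ g.2 _ x.2⟩
  one_smul x := Subtype.ext (one_smul G x.1)
  mul_smul g h x := Subtype.ext (mul_smul g.1 h.1 x.1)

/-- the permutation representation on an invariant set -/
def rep5 (hI : Inv H O) : H →* Equiv.Perm O := @toPermHom H O _ (act5 hI)

theorem rep5_apply (hI : Inv H O) (g : H) (x : O) : (rep5 hI g x).1 = g.1 • x.1 := rfl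

theorem rep5_eq_one (hI : Inv H O) {g : H} : rep5 hI g = 1 ↔ ∀ x ∈ O, g.1 • x = x :=
  ⟨fun h x hx => by rw [← rep5_apply hI g ⟨x, hx⟩, h]; rfl,
    fun h => Equiv.ext fun x => Subtype.ext (h x.1 x.2)⟩

theorem isPreprimitive_act5 (hO : Orb H O) (hP : Prim H O) :
    @IsPreprimitive H O (act5 hO.inv).toSMul := by
  let _ := act5 hO.inv
  classical
  have : IsPretransitive H O := ⟨fun x y => by
    obtain ⟨g, hg, e⟩ := hO.tr x.1 x.2 y.1 y.2
    exact ⟨⟨g, hg⟩, Subtype.ext e⟩⟩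
  refine ⟨fun {B} hB => ?_⟩
  have mem : ∀ x, x ∈ O.filter (fun x => ∃ h : x ∈ O, (⟨x, h⟩ : O) ∈ B) ↔
      ∃ h : x ∈ O, (⟨x, h⟩ : O) ∈ B := fun x => by
    rw [mem_filter]; exact ⟨fun h => h.2, fun h => ⟨h.1, h⟩⟩
  rcases hP (O.filter fun x => ∃ h : x ∈ O, (⟨x, h⟩ : O) ∈ B) (filter_subset _ _)
    (fun g hg x hx hx' y hy => by
      obtain ⟨a, ha⟩ := (mem _).1 hx
      obtain ⟨b, hb⟩ := (mem _).1 hx'
      obtain ⟨c, hc⟩ := (mem _).1 hy
      have e := hB.smul_eq_of_mem (g := (⟨g, hg⟩ : H)) ha hb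
      refine (mem _).2 ⟨hO.inv g hg y c, ?_⟩
      rw [← e]
      exact Set.smul_mem_smul_set (a := (⟨g, hg⟩ : H)) hc) with h | h
  · exact .inl fun x hx y hy => Subtype.ext
      (card_le_one.1 h _ ((mem _).2 ⟨x.2, hx⟩) _ ((mem _).2 ⟨y.2, hy⟩))
  · refine .inr (Set.eq_univ_of_forall fun x => ?_)
    obtain ⟨_, h'⟩ := (mem x.1).1 (h.symm ▸ x.2)
    exact h'

theorem Cyc.fixD5 (h : Cyc p (P : Subgroup G) X Λ) (D : Finset Ω) (hD : D ⊆ fx (P : Subgroup G) Λ) :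
    ∃ Y ≤ fixS X D, Cyc p (P : Subgroup G) Y (Λ \ D) := by
  induction D using Finset.induction_on with
  | empty => exact ⟨X, fun g hg => ⟨hg, by simp⟩, by simpa using h⟩
  | insert b D hb ih =>
    obtain ⟨Y, h1, h2⟩ := ih ((subset_insert _ _).trans hD)
    have hb' := mem_fx.1 (hD (mem_insert_self _ _))
    refine ⟨_, fun g hg => ?_, by
      simpa [sdiff_insert, sdiff_singleton_eq_erase] using
        C1 h2 (mem_sdiff.2 ⟨hb'.1, hb⟩) hb'.2⟩
    have := Op_le hg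
    refine ⟨(h1 this.1).1, fun d hd => ?_⟩
    rcases mem_insert.1 hd with rfl | hd
    · exact this.2 _ (mem_singleton_self _)
    · exact (h1 this.1).2 d hd

theorem Cyc.trK5 (h : Cyc p (P : Subgroup G) X Λ) {k : ℕ} (hk : k ≤ (fx (P : Subgroup G) Λ).card) :
    TrK X Λ (k + 1) := by
  induction k with
  | zero => exact h.orb.trK
  | succ k ih =>
    obtain ⟨D, h1, h2⟩ := exists_subset_card_eq hk
    obtain ⟨Y, h3, h4⟩ := h.fixD5 D h1
    refine TrK.succ h.orb.inv (ih (by omega)) (h1.trans (fx_subset _ _)) h2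
      ⟨h.orb.inv.fix D, fun x hx y hy => ?_⟩
    obtain ⟨g, hg, e⟩ := h4.orb.tr x hx y hy
    exact ⟨g, h3 hg, e⟩

theorem Cyc.swap5 (h : Cyc p (P : Subgroup G) X Λ) {a b : Ω} (ha : a ∈ fx (P : Subgroup G) Λ)
    (hb : b ∈ fx (P : Subgroup G) Λ) : ∃ m ∈ X, Nrm (P : Subgroup G) m ∧
      ∀ d ∈ fx (P : Subgroup G) Λ, m • d = Equiv.swap a b d := by
  have hs : ∀ d ∈ fx (P : Subgroup G) Λ, Equiv.swap a b d ∈ fx (P : Subgroup G) Λ := fun d hd => by
    rw [Equiv.swap_apply_def]; split_ifs <;> assumption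
  obtain ⟨g, hg, e⟩ := h.trK5 le_rfl (fx (P : Subgroup G) Λ) (Equiv.swap a b) (fx_subset _ _)
    (by omega) (Equiv.injective _).injOn fun d hd => fx_subset _ _ (hs d hd)
  obtain ⟨u, hu, m, hm, rfl⟩ := frat (P := P) (Y := fixS X (fx (P : Subgroup G) Λ)) (s := g)
    (le_fixS h.le fun d hd => (mem_fx.1 hd).2) fun k hk =>
      ⟨X.mul_mem (X.mul_mem hg (h.le hk)) (X.inv_mem hg), fun d hd => by
        have : g⁻¹ • d = Equiv.swap a b d := by
          rw [inv_smul_eq_iff, e _ (hs d hd), Equiv.swap_apply_self]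
        rw [mul_smul, mul_smul, this, (mem_fx.1 (hs d hd)).2 k hk, ← this, smul_inv_smul]⟩
  have hu' := Op_le hu
  refine ⟨m, by simpa using X.mul_mem (X.inv_mem hu'.1) hg, hm, fun d hd => ?_⟩
  have := e d hd
  rw [mul_smul, smul_eq_iff_eq_inv_smul] at this
  rw [this, inv_smul_eq_iff, hu'.2 _ (hs d hd)]

theorem perm_comm5 {α : Type} [Fintype α] [DecidableEq α] (hα : Fintype.card α = p)
    {R : Subgroup (Equiv.Perm α)} (hR : IsPGroup p R) {z : α} (ht : ∀ w, ∃ r ∈ R, r z = w)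
    {a b : Equiv.Perm α} (ha : ∀ r ∈ R, a * r * a⁻¹ ∈ R) (hb : ∀ r ∈ R, b * r * b⁻¹ ∈ R) :
    (a⁻¹ * b⁻¹ * a * b) ^ p = 1 := by
  have h2 := hp.out.two_le
  obtain ⟨j, hj⟩ := IsPGroup.iff_card.1 hR
  have hd : p ^ j ∣ p.factorial := by
    rw [← hj, ← hα, ← Fintype.card_perm, ← Nat.card_eq_fintype_card]
    exact R.card_subgroup_dvd_card
  have hj1 : j ≤ 1 := by
    by_contra hh
    have := (pow_dvd_pow p (show 2 ≤ j by omega)).trans hd
    rw [← Nat.mul_factorial_pred (by omega), pow_two] at this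
    have := (hp.out.dvd_factorial).1 (Nat.dvd_of_mul_dvd_mul_left (by omega) this)
    omega
  obtain ⟨w, hw⟩ := Fintype.exists_ne_of_one_lt_card (by omega : 1 < Fintype.card α) z
  obtain ⟨σ, hσ, e⟩ := ht w
  have h1 : σ ≠ 1 := fun hh => hw (by rw [← e, hh]; rfl)
  have hc : Nat.card R ∣ p := by rw [hj]; simpa using pow_dvd_pow p hj1
  have ho : orderOf σ = p := by
    have := (Subgroup.orderOf_dvd_natCard R hσ).trans hc
    exact ((Nat.dvd_prime hp.out).1 this).resolve_left (by simpa using h1)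
  have hz : Subgroup.zpowers σ = R := Subgroup.eq_of_le_of_card_ge (by simpa using hσ)
    (by rw [Nat.card_zpowers, ho]; exact Nat.le_of_dvd (by omega) hc)
  subst hz
  obtain ⟨i, hi⟩ := Subgroup.mem_zpowers_iff.1 (ha σ hσ)
  obtain ⟨k, hk⟩ := Subgroup.mem_zpowers_iff.1 (hb σ hσ)
  have e1 : (a * b) * σ * (a * b)⁻¹ = σ ^ (i * k) := by
    rw [zpow_mul, hi, conj_zpow, hk]; group
  have e2 : (b * a) * σ * (b * a)⁻¹ = σ ^ (i * k) := by
    rw [mul_comm i, zpow_mul, hk, conj_zpow, hi]; group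
  have hcm : Commute (a⁻¹ * b⁻¹ * a * b) σ := by
    have : a⁻¹ * b⁻¹ * a * b * σ = (b * a)⁻¹ * ((a * b) * σ * (a * b)⁻¹) * (a * b) := by group
    rw [Commute, SemiconjBy, this, e1, ← e2]; group
  obtain ⟨q, hq, eq⟩ := ht ((a⁻¹ * b⁻¹ * a * b) z)
  obtain ⟨s, rfl⟩ := Subgroup.mem_zpowers_iff.1 hq
  have : a⁻¹ * b⁻¹ * a * b = σ ^ s := Equiv.ext fun v => by
    obtain ⟨r, hr, rfl⟩ := ht v
    obtain ⟨t, rfl⟩ := Subgroup.mem_zpowers_iff.1 hr
    rw [← Equiv.Perm.mul_apply, (hcm.zpow_right t).eq, Equiv.Perm.mul_apply, ← eq,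
      ← Equiv.Perm.mul_apply, ← Equiv.Perm.mul_apply, zpow_mul_comm]
  rw [this, ← zpow_natCast, ← zpow_mul, mul_comm, zpow_mul, zpow_natCast, ← ho, pow_orderOf_eq_one,
    one_zpow]

theorem Cyc.comm5 (h : Cyc p (P : Subgroup G) X Λ) {a b : G} (ha : a ∈ X) (hb : b ∈ X)
    (ha' : Nrm (P : Subgroup G) a) (hb' : Nrm (P : Subgroup G) b) :
    ∀ w ∈ mv (P : Subgroup G) Λ, (a⁻¹ * b⁻¹ * a * b) ^ p • w = w := by
  have hI : Inv (X ⊓ Subgroup.normalizer ((P : Subgroup G) : Set G)) (mv (P : Subgroup G) Λ) :=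
    fun g hg x hx => mem_mv.2 ⟨h.orb.inv g hg.1 x (mem_mv.1 hx).1, fun hh => (mem_mv.1 hx).2
      ((Nrm.fx_iff (Subgroup.mem_normalizer_iff.1 hg.2)).1 hh)⟩
  obtain ⟨z, hz⟩ := card_pos.1 (hp.out.pos.trans_eq h.mvc.symm)
  have cj : ∀ m : ↥(X ⊓ Subgroup.normalizer ((P : Subgroup G) : Set G)),
      ∀ r ∈ ((P : Subgroup G).subgroupOf _).map (rep5 hI),
      rep5 hI m * r * (rep5 hI m)⁻¹ ∈ ((P : Subgroup G).subgroupOf _).map (rep5 hI) := by
    rintro m _ ⟨k, hk, rfl⟩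
    exact ⟨m * k * m⁻¹, (Subgroup.mem_normalizer_iff.1 m.2.2 k.1).1 hk, by simp⟩
  have := perm_comm5 (p := p) (z := ⟨z, hz⟩) (by simpa using h.mvc)
    ((P.isPGroup'.comap_subtype (K := X ⊓ Subgroup.normalizer ((P : Subgroup G) : Set G))).map
      (rep5 hI)) (fun w => by
      obtain ⟨k, hk, e⟩ := mem_orb.1 ((mv_eq_orb (fun g hg => h.orb.inv g (h.le hg)) h.mvc hz).ge w.2)
      exact ⟨_, ⟨⟨k, h.le hk, Subgroup.le_normalizer hk⟩, hk, rfl⟩, Subtype.ext e⟩)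
    (cj ⟨a, ha, Subgroup.mem_normalizer_iff.2 ha'⟩) (cj ⟨b, hb, Subgroup.mem_normalizer_iff.2 hb'⟩)
  rw [← map_inv, ← map_inv, ← map_mul, ← map_mul, ← map_mul, ← map_pow] at this
  exact (rep5_eq_one hI).1 this

theorem Cyc.alt5 (h : Cyc p (P : Subgroup G) X Λ) (h3 : p + 3 ≤ Λ.card) :
    alternatingGroup Λ ≤ (rep5 h.orb.inv).range := by
  have hc := card_fx_mv (P : Subgroup G) Λ
  have hm := h.mvc
  have hl := h.lt
  obtain ⟨a, ha, b, hb, d, hd, ab, ad, bd⟩ := two_lt_card.1 (show 2 < (fx (P : Subgroup G) Λ).card by omega)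
  obtain ⟨m, hm1, hm2, hm3⟩ := h.swap5 ha hb
  obtain ⟨l, hl1, hl2, hl3⟩ := h.swap5 ha hd
  have inv : ∀ {u : G} {x y : Ω}, u • x = y → u⁻¹ • y = x := fun e => by rw [← e, inv_smul_smul]
  have ma : m • a = b := by simp [hm3 a ha]
  have mb : m • b = a := by simp [hm3 b hb]
  have md : m • d = d := by rw [hm3 d hd, Equiv.swap_apply_of_ne_of_ne ad.symm bd.symm]
  have la : l • a = d := by simp [hl3 a ha]
  have ld : l • d = a := by simp [hl3 d hd]
  have lb : l • b = b := by rw [hl3 b hb, Equiv.swap_apply_of_ne_of_ne ab.symm bd]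
  set c := m⁻¹ * l⁻¹ * m * l with hcd
  have ca : c • a = b := by simp only [hcd, mul_smul, la, md, inv la, inv mb]
  have cb : c • b = d := by simp only [hcd, mul_smul, lb, mb, inv ld, inv md]
  have cd : c • d = a := by simp only [hcd, mul_smul, ld, ma, inv lb, inv ma]
  have cX : c ∈ X := X.mul_mem (X.mul_mem (X.mul_mem (X.inv_mem hm1) (X.inv_mem hl1)) hm1) hl1
  have c3 : c ^ 3 ∈ stabilizer G a := by
    rw [mem_stabilizer_iff, pow_three, mul_smul c, mul_smul c, ca, cb, cd]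
  have cp : c ^ p • a ≠ a := by
    rw [← Nat.mod_add_div p 3, pow_add, pow_mul, mul_smul, mem_stabilizer_iff.1 (pow_mem c3 _)]
    have : ¬ 3 ∣ p := fun hh => by
      have := (Nat.prime_dvd_prime_iff_eq Nat.prime_three hp.out).1 hh; omega
    obtain e | e : p % 3 = 1 ∨ p % 3 = 2 := by omega
    · rw [e, pow_one, ca]; exact ab.symm
    · rw [e, pow_two, mul_smul, ca, cb]; exact ad.symm
  obtain ⟨z, hz, hz'⟩ := h.mvv
  obtain ⟨x, hx, hxz⟩ : ∃ x ∈ (P : Subgroup G), x • z ≠ z := by simpa [Fx] using hz'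
  have zb : z ≠ b := fun e => hz' (e ▸ (mem_fx.1 hb).2)
  have zd : z ≠ d := fun e => hz' (e ▸ (mem_fx.1 hd).2)
  have ha0 := (mem_fx.1 ha).1
  obtain ⟨g, hg, e⟩ := h.trK5 (k := 2) (by omega) {z, b, d} (Equiv.swap z a)
    (by simp [insert_subset_iff, hz, (mem_fx.1 hb).1, (mem_fx.1 hd).1]) card_le_three
    (Equiv.injective _).injOn fun y hy => by
      rw [Equiv.swap_apply_def]
      split_ifs
      · exact ha0
      · exact hz
      · simp only [mem_insert, mem_singleton] at hy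
        rcases hy with rfl | rfl | rfl
        exacts [hz, (mem_fx.1 hb).1, (mem_fx.1 hd).1]
  have gz : g • z = a := by simp [e z (by simp)]
  have gb : g • b = b := by rw [e b (by simp), Equiv.swap_apply_of_ne_of_ne zb.symm ab.symm]
  have gd : g • d = d := by rw [e d (by simp), Equiv.swap_apply_of_ne_of_ne zd.symm ad.symm]
  let _ := act5 h.orb.inv
  refine H8.alternatingGroup_le_range_of_supports (isPreprimitive_act5 h.orb h.prim)
    (x := ⟨c ^ p, pow_mem cX p⟩)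
    (y := ⟨g * x * g⁻¹, X.mul_mem (X.mul_mem hg (h.le hx)) (X.inv_mem hg)⟩) (a := ⟨a, ha0⟩)
    (fun hh => cp (congrArg Subtype.val hh)) (fun hh => hxz ?_) fun w hw => ?_
  · have : (g * x * g⁻¹) • a = a := congrArg Subtype.val hh
    rwa [mul_smul, mul_smul, inv gz, ← gz, smul_left_cancel_iff] at this
  by_cases wb : w.1 = b
  · refine .inr (Subtype.ext (show (g * x * g⁻¹) • w.1 = w.1 from ?_))
    rw [wb, mul_smul, mul_smul, inv gb, (mem_fx.1 hb).2 x hx, gb]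
  by_cases wd : w.1 = d
  · refine .inr (Subtype.ext (show (g * x * g⁻¹) • w.1 = w.1 from ?_))
    rw [wd, mul_smul, mul_smul, inv gd, (mem_fx.1 hd).2 x hx, gd]
  refine .inl (Subtype.ext (show (c ^ p) • w.1 = w.1 from ?_))
  by_cases wF : Fx (P : Subgroup G) w.1
  · have wa : w.1 ≠ a := fun e => hw (Subtype.ext e)
    have h1 : m • w.1 = w.1 := by rw [hm3 _ (mem_fx.2 ⟨w.2, wF⟩), Equiv.swap_apply_of_ne_of_ne wa wb]
    have h2 : l • w.1 = w.1 := by rw [hl3 _ (mem_fx.2 ⟨w.2, wF⟩), Equiv.swap_apply_of_ne_of_ne wa wd]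
    exact pow_mem (show c ∈ stabilizer G w.1 by
      simp only [mem_stabilizer_iff, hcd, mul_smul, h1, h2, inv h1, inv h2]) p
  · exact h.comm5 hm1 hl1 hm2 hl2 _ (mem_mv.2 ⟨w.2, wF⟩)

theorem TA {A0 : Finset T} (h : Cyc p (P : Subgroup G) X Λ) (h3 : p + 3 ≤ Λ.card) (hI : Inv X A0)
    (hlt : A0.card < Λ.card)
    (hk : ∀ y ∈ (P : Subgroup G), (∀ x ∈ A0, y • x = x) → ∀ x ∈ Λ, y • x = x) : False := by
  have hA := h.alt5 h3
  have hl := h.lt
  have hs : IsSimpleGroup (alternatingGroup Λ) := alternatingGroup.isSimpleGroup (by simp; omega)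
  have hn : ((((rep5 hI).ker).map (rep5 h.orb.inv)).subgroupOf (alternatingGroup Λ)).Normal := by
    refine ⟨fun σ ⟨l, hl, e⟩ τ => ?_⟩
    obtain ⟨t, ht⟩ := hA τ.2
    exact ⟨t * l * t⁻¹, (MonoidHom.normal_ker _).conj_mem l hl t, by simp [ht, e]⟩
  rcases hn.eq_bot_or_eq_top with hb | hb
  · choose f hf using fun σ : alternatingGroup Λ => hA σ.2
    have := Nat.card_le_card_of_injective (fun σ => rep5 hI (f σ)) fun σ τ e => by
      have : σ * τ⁻¹ ∈ (((rep5 hI).ker).map (rep5 h.orb.inv)).subgroupOf (alternatingGroup Λ) :=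
        ⟨f σ * (f τ)⁻¹, by simpa [MonoidHom.mem_ker, mul_inv_eq_one] using e, by simp [hf]⟩
      rwa [hb, Subgroup.mem_bot, mul_inv_eq_one] at this
    have nt : Nontrivial Λ := Fintype.one_lt_card_iff_nontrivial.1 (by simp; omega)
    have h2 := two_mul_nat_card_alternatingGroup (α := Λ)
    rw [Nat.card_perm, Nat.card_eq_finsetCard] at this h2
    rw [← Nat.mul_factorial_pred (by omega)] at h2
    have h4 := Nat.factorial_le (show A0.card ≤ Λ.card - 1 by omega)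
    have h5 := Nat.factorial_pos (Λ.card - 1)
    nlinarith
  obtain ⟨z, hz, hz'⟩ := h.mvv
  obtain ⟨x, hx, hxz⟩ : ∃ x ∈ (P : Subgroup G), x • z ≠ z := by simpa [Fx] using hz'
  obtain ⟨k, hk'⟩ := pe_of_mem hx
  have e1 : rep5 h.orb.inv ⟨x, h.le hx⟩ ^ p ^ k = 1 := by
    rw [← map_pow, ← map_one (rep5 h.orb.inv)]; congr 1; exact Subtype.ext hk'
  have e2 : rep5 h.orb.inv ⟨x, h.le hx⟩ ∈ alternatingGroup Λ := by
    have := congrArg Equiv.Perm.sign e1
    rw [map_pow, map_one] at this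
    rcases Int.units_eq_one_or (Equiv.Perm.sign (rep5 h.orb.inv ⟨x, h.le hx⟩)) with e | e
    · exact e
    · rw [e, Odd.neg_one_pow ((hp.out.odd_of_ne_two (by omega)).pow)] at this
      exact absurd this (by decide)
  obtain ⟨l, hl1, hl2⟩ : (⟨_, e2⟩ : alternatingGroup Λ) ∈
    (((rep5 hI).ker).map (rep5 h.orb.inv)).subgroupOf (alternatingGroup Λ) := hb ▸ trivial
  obtain ⟨j, r, hr, e⟩ := Nat.exists_eq_pow_mul_and_not_dvd (orderOf_pos l).ne' p hp.out.ne_one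
  obtain ⟨g, hg, hg'⟩ := syl h.le (l ^ r).2 ⟨j, by
    rw [← Subgroup.coe_pow, ← pow_mul, mul_comm, ← e, pow_orderOf_eq_one]; rfl⟩
  have hgX := Op_le hg
  have f1 := (rep5_eq_one hI).1 (pow_mem hl1 r)
  have f2 := hk _ hg' fun y hy => by rw [mul_smul, mul_smul, f1 _ (hI g hgX y hy), inv_smul_smul]
  have f3 : rep5 h.orb.inv (l ^ r) = 1 := (rep5_eq_one _).2 fun y hy => by
    have := f2 _ (h.orb.inv _ (X.inv_mem hgX) y hy)
    rwa [mul_smul, mul_smul, smul_inv_smul, smul_left_cancel_iff] at this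
  rw [map_pow, hl2] at f3
  have f4 := pow_gcd_eq_one.2 ⟨f3, e1⟩
  rw [Nat.Coprime.gcd_eq_one (((Nat.Prime.coprime_iff_not_dvd hp.out).2 hr).symm.pow_right k),
    pow_one] at f4
  exact hxz ((rep5_eq_one _).1 f4 z hz)

end Cfsg.Agent.L0.Sy
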