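import Cfsg.Agent.H6.S3.Final

/-!
# Suzuki groups are determined by the orders of their maximal subgroups
-/

set_option autoImplicit false

namespace Cfsg.Agent.H5.SzMax

open Subgroup Cfsg.Agent.H7 Cfsg.Agent.H6.S3

variable {G X : Type*} [Group G] [Group X] [Finite G] [Finite X]

theorem exists_simple_quot [Nontrivial G] :
    ∃ (N : Subgroup G) (_ : N.Normal), IsSimpleGroup (G ⧸ N) := by
  obtain ⟨N, ⟨hN, h1⟩, hmax⟩ := Set.Finite.exists_maximal (s := {N : Subgroup G |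
    N.Normal ∧ N ≠ ⊤}) (Set.toFinite _) ⟨⊥, inferInstance, bot_ne_top⟩
  have : Nontrivial (G ⧸ N) := QuotientGroup.nontrivial_iff.2 h1
  refine ⟨N, hN, ⟨fun K hK => or_iff_not_imp_right.2 fun h2 => ?_⟩⟩
  have e := hmax (y := K.comap (QuotientGroup.mk' N)) ⟨hK.comap _, fun e => h2 (by
    rw [← map_comap_eq_self_of_surjective (QuotientGroup.mk'_surjective N) K, e]
    exact map_top_of_surjective _ (QuotientGroup.mk'_surjective N))⟩
    (QuotientGroup.le_comap_mk' N K)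
  refine (eq_bot_iff_forall K).2 fun x hx => ?_
  obtain ⟨x, rfl⟩ := QuotientGroup.mk'_surjective N x
  exact (QuotientGroup.eq_one_iff x).2 (e hx)

theorem card_dvd_of_coatoms {n : ℕ} (hX : ∀ p : ℕ, p.Prime → ¬ IsPGroup p X)
    (h : ∀ M : Subgroup X, IsCoatom M → Nat.card M ∣ n) : Nat.card X ∣ n := by
  refine (Nat.dvd_iff_prime_pow_dvd_dvd _ _).2 fun p k hp hk => ?_
  have : Fact p.Prime := ⟨hp⟩
  obtain ⟨P, hP⟩ := Sylow.exists_subgroup_card_pow_prime p hk
  obtain e | ⟨M, h1, h2⟩ := eq_top_or_exists_le_coatom P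
  · exact absurd (IsPGroup.of_card (by rw [← hP, e, card_top])) (hX p hp)
  · exact hP ▸ (card_dvd_of_le h2).trans (h M h1)

theorem odd_index (h : IsSz X) : ∃ n, 3 ≤ n ∧ Odd n ∧
    Nat.card X = (2 ^ n) ^ 2 * ((2 ^ n) ^ 2 + 1) * (2 ^ n - 1) ∧
    (∃ M : Subgroup X, IsCoatom M ∧ M.index = (2 ^ n) ^ 2 + 1) ∧
    ∀ M : Subgroup X, IsCoatom M → Odd M.index → M.index = (2 ^ n) ^ 2 + 1 := by
  obtain ⟨T, Z, H, w, n, d⟩ := IsSz.exists_szD (L := (⊤ : Subgroup X)) (h.of_equiv topEquiv.symm)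
  have h0 : ∀ {T Z H : Subgroup X} {w : X}, SzD ⊤ T Z H w n → N[Z] ≠ ⊤ := fun d e => by
    have := d.index
    rw [e, relIndex_self] at this
    simp at this
  have key : ∀ M : Subgroup X, IsCoatom M → Odd M.index → M.index = (2 ^ n) ^ 2 + 1 :=
    fun M hM ho => by
      obtain ⟨S, hS⟩ := exists_isSylowIn (p := 2) M
      obtain ⟨Z', H', w', d'⟩ := d.exists_syl (T' := S) ⟨le_top, hS.isPGroup, by
        rw [← relIndex_mul_relIndex S M ⊤ hS.le le_top, relIndex_top_right]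
        exact Nat.prime_two.not_dvd_mul hS.not_dvd (Nat.two_dvd_ne_zero.2 (Nat.odd_iff.1 ho))⟩
      have e : M ≤ N[Z'] := (by_contra fun e => hM.1 (d'.eq_of_Z_le le_top (d'.ZT.trans hS.le) e) :
        M ≤ N[S]).trans d'.norm_le_normZ
      rw [← d'.index, relIndex_top_right, (hM.le_iff.1 e).resolve_left (h0 d')]
  obtain ⟨M, h1, h2⟩ := (eq_top_or_exists_le_coatom N[Z]).resolve_left (h0 d)
  refine ⟨n, d.three, d.odd, by rw [← d.cardL, card_top], ⟨M, h1, key M h1 ?_⟩, key⟩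
  refine Odd.of_dvd_nat ?_ (index_dvd_of_le h2)
  rw [← relIndex_top_right, d.index]
  have := d.three
  exact Even.add_one (Even.pow_of_ne_zero (Even.pow_of_ne_zero even_two (by omega)) two_ne_zero)

theorem main (hX : IsSz X)
    (h : {k : ℕ | ∃ M : Subgroup G, IsCoatom M ∧ k = Nat.card M} =
      {k : ℕ | ∃ M : Subgroup X, IsCoatom M ∧ k = Nat.card M}) :
    IsSz G ∧ Nat.card G = Nat.card X := by
  have h1 : ∀ M : Subgroup G, IsCoatom M → ∃ M' : Subgroup X, IsCoatom M' ∧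
      Nat.card M = Nat.card M' := fun M hM => (Set.ext_iff.1 h _).1 ⟨M, hM, rfl⟩
  have h2 : ∀ M : Subgroup X, IsCoatom M → ∃ M' : Subgroup G, IsCoatom M' ∧
      Nat.card M = Nat.card M' := fun M hM => (Set.ext_iff.1 h _).2 ⟨M, hM, rfl⟩
  have hs := hX.simple
  obtain ⟨n, hn, ho, hc, -, key⟩ := odd_index hX
  have h5 : 5 ∣ (2 ^ n) ^ 2 + 1 := by
    obtain ⟨k, rfl⟩ := ho
    rw [← pow_mul, show (2 * k + 1) * 2 = 4 * k + 2 by ring, pow_add, pow_mul]
    have := Nat.pow_mod 16 k 5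
    norm_num at this ⊢
    omega
  have h8 : 8 ≤ 2 ^ n := Nat.pow_le_pow_right two_pos hn
  have h2X : 2 ∣ Nat.card X := hc ▸ ((dvd_pow (dvd_pow_self 2 (by omega)) two_ne_zero).mul_right
    _).mul_right _
  have h5X : 5 ∣ Nat.card X := hc ▸ (h5.mul_left _).mul_right _
  have hp : ∀ p k : ℕ, p.Prime → ¬ Nat.card X ∣ p ^ k := fun p k hp e => by
    have e1 := (Nat.prime_dvd_prime_iff_eq Nat.prime_two hp).1
      (Nat.prime_two.dvd_of_dvd_pow (h2X.trans e))
    have e2 := (Nat.prime_dvd_prime_iff_eq Nat.prime_five hp).1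
      (Nat.prime_five.dvd_of_dvd_pow (h5X.trans e))
    omega
  have d1 : Nat.card X ∣ Nat.card G := card_dvd_of_coatoms (fun p hp' e => by
    have : Fact p.Prime := ⟨hp'⟩
    obtain ⟨k, hk⟩ := IsPGroup.iff_card.1 e
    exact hp p k hp' hk.dvd) fun M hM => by
      obtain ⟨M', -, e⟩ := h2 M hM
      exact e ▸ M'.card_subgroup_dvd_card
  have d2 : Nat.card G = Nat.card X := Nat.dvd_antisymm (card_dvd_of_coatoms (fun p hp' e => by
    have : Fact p.Prime := ⟨hp'⟩
    obtain ⟨k, hk⟩ := IsPGroup.iff_card.1 e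
    exact hp p k hp' (hk ▸ d1)) fun M hM => by
      obtain ⟨M', -, e⟩ := h1 M hM
      exact e ▸ M'.card_subgroup_dvd_card) d1
  have h3 : ∀ M : Subgroup G, IsCoatom M → ∃ M' : Subgroup X, IsCoatom M' ∧ M.index = M'.index :=
    fun M hM => by
      obtain ⟨M', h', e⟩ := h1 M hM
      refine ⟨M', h', Nat.eq_of_mul_eq_mul_left (Nat.card_pos (α := M)) ?_⟩
      rw [card_mul_index, e, card_mul_index, d2]
  have : Nontrivial G := Finite.one_lt_card_iff_nontrivial.1 (by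
    have := Nat.le_of_dvd Nat.card_pos h2X
    omega)
  obtain ⟨N, hN, hsN⟩ := exists_simple_quot (G := G)
  have hsur := QuotientGroup.mk'_surjective N
  have h4 : IsSz (G ⧸ N) := isSz_of_simple _ (by
    by_contra e
    push Not at e
    let _ : CommGroup (G ⧸ N) := { mul_comm := e }
    have hq : (Nat.card (G ⧸ N)).Prime := IsSimpleGroup.prime_card
    have : Fact (Nat.card (G ⧸ N)).Prime := ⟨hq⟩
    obtain ⟨M, hM, e'⟩ := h3 _ (isCoatom_comap_of_surjective hsur (M := ⊥) ⟨bot_ne_top, fun K hK =>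
      (K.eq_bot_or_eq_top_of_prime_card).resolve_left hK.ne'⟩)
    rw [index_comap_of_surjective _ hsur, index_bot] at e'
    rw [e'] at hq
    rcases hq.eq_two_or_odd' with e2 | e2
    · rcases (normal_of_index_eq_two e2).eq_bot_or_eq_top with e3 | e3
      · rw [e3, index_bot] at e2; omega
      · exact hM.1 e3
    · rw [key M hM e2] at hq
      have := (Nat.prime_dvd_prime_iff_eq Nat.prime_five hq).1 h5
      nlinarith) fun e => hX.not_three (d2 ▸ e.trans (card_quotient_dvd_card N))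
  obtain ⟨n', hn', -, hc', ⟨M, hM, e⟩, -⟩ := odd_index h4
  obtain ⟨M', hM', e'⟩ := h3 _ (isCoatom_comap_of_surjective hsur hM)
  rw [index_comap_of_surjective _ hsur, e] at e'
  rw [key M' hM' (e' ▸ Even.add_one (Even.pow_of_ne_zero (Even.pow_of_ne_zero even_two (by omega))
    two_ne_zero))] at e'
  rw [(pow_left_inj₀ (by positivity) (by positivity) two_ne_zero).1 (Nat.add_right_cancel e'),
    ← hc, ← d2] at hc'
  exact ⟨h4.of_equiv (MulEquiv.ofBijective (QuotientGroup.mk' N)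
    ((Nat.bijective_iff_surjective_and_card _).2 ⟨hsur, hc'.symm⟩)).symm, d2⟩

theorem iso_of_isSz (h : IsSz G) {F : Type*} [Field F] [Fintype F] {m : ℕ}
    (hF : Fintype.card F = 2 ^ (2 * m + 1)) (hc : Nat.card G = Fintype.card F ^ 2 *
      (Fintype.card F ^ 2 + 1) * (Fintype.card F - 1)) :
    Nonempty (G ≃* Lie.Sz F (2 ^ (m + 1))) := by
  obtain ⟨T, Z, H, w, n, d⟩ := IsSz.exists_szD (L := (⊤ : Subgroup G)) (h.of_equiv topEquiv.symm)
  obtain ⟨k, hk, e, -⟩ | ⟨k, hk, e, e'⟩ := H2.ti_ident (G := (⊤ : Subgroup G)) (d.isCIT le_rfl)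
    (d.sylTI le_rfl) (by
      rw [card_top, hc, hF]
      exact ((Even.pow_of_ne_zero (Even.pow_of_ne_zero even_two (by omega)) two_ne_zero).mul_right
        _).mul_right _) d.not_sol
  · refine absurd ?_ d.not_three
    rw [e]
    obtain ⟨r, hr⟩ : ∃ r, 2 ^ k = r + 1 := ⟨2 ^ k - 1, by have := Nat.one_le_two_pow (n := k); omega⟩
    rw [hr, Nat.add_sub_cancel]
    obtain e | e | e : 3 ∣ r + 1 ∨ 3 ∣ r ∨ 3 ∣ r + 1 + 1 := by omega
    exacts [(e.mul_right _).mul_right _, (e.mul_left _).mul_right _, e.mul_left _]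
  · have hm : StrictMono fun i : ℕ =>
        (2 ^ (2 * i + 1)) ^ 2 * ((2 ^ (2 * i + 1)) ^ 2 + 1) * (2 ^ (2 * i + 1) - 1) := fun i j hij => by
      have e1 : 2 ^ (2 * i + 1) < 2 ^ (2 * j + 1) := Nat.pow_lt_pow_right one_lt_two (by omega)
      have e2 : 1 < 2 ^ (2 * i + 1) := Nat.one_lt_two_pow (by omega)
      exact Nat.mul_lt_mul'' (Nat.mul_lt_mul'' (by gcongr) (by gcongr)) (by omega)
    rw [card_top, hc, hF] at e
    obtain rfl : m = k := hm.injective e
    obtain ⟨φ⟩ := e' F hF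
    exact ⟨topEquiv.symm.trans φ⟩

end Cfsg.Agent.H5.SzMax
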